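import Mathlib

/-! Limits of additive subgroups of a finite ring under a quadratic one-parameter group. -/

set_option autoImplicit false
set_option linter.unusedSectionVars false
set_option maxHeartbeats 400000

namespace CfsgH3.Lim

open Polynomial

variable {E : Type*} [Ring E] {β : E}

/-- `1 + t β` -/
noncomputable def PP (β : E) : E[X] := 1 + C β * X

theorem PP_mul (h : β * β = 0) : PP (-β) * PP β = 1 := by
  have : C β * X * (C β * X) = 0 := by
    rw [mul_assoc, ← mul_assoc X, X_mul_C, ← mul_assoc, ← mul_assoc, ← C_mul, h]; simp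
  simp only [PP, C_neg, neg_mul, mul_add, add_mul, one_mul, mul_one, this]
  abel

theorem PP_mul' (h : β * β = 0) : PP β * PP (-β) = 1 := by
  simpa using PP_mul (β := -β) (by simpa using h)

theorem conj_eq (β : E) (f : E[X]) :
    PP β * f * PP (-β) = f + (C β * f - f * C β) * X - C β * f * C β * X * X := by
  simp only [PP, C_neg, neg_mul, mul_add, add_mul, one_mul, mul_one, mul_neg, sub_mul, mul_assoc,
    X_mul (p := f), X_mul (p := f * (C β * X)), X_mul (p := C β * X)]
  abel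

/-- Polynomials with coefficients in `U`. -/
def pol (U : AddSubgroup E) : AddSubgroup E[X] where
  carrier := {f | ∀ n, f.coeff n ∈ U}
  zero_mem' := fun _ => by simp
  add_mem' := fun h1 h2 n => by rw [coeff_add]; exact add_mem (h1 n) (h2 n)
  neg_mem' := fun h n => by rw [coeff_neg]; exact neg_mem (h n)

theorem mul_X_mem {U : AddSubgroup E} {f : E[X]} (h : f ∈ pol U) : f * X ∈ pol U := fun n => by
  rcases n with _ | n
  · simp
  · rw [coeff_mul_X]; exact h n

theorem C_mem {U : AddSubgroup E} {u : E} (h : u ∈ U) : C u ∈ pol U := fun n => by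
  rw [coeff_C]; split_ifs <;> simp [h]

theorem conj_mem {U W : AddSubgroup E} (h : ∀ u ∈ U, u ∈ W ∧ β * u - u * β ∈ W ∧ β * u * β ∈ W)
    {f : E[X]} (hf : f ∈ pol U) : PP β * f * PP (-β) ∈ pol W := by
  rw [conj_eq]
  refine sub_mem (add_mem (fun n => (h _ (hf n)).1) (mul_X_mem fun n => ?_))
    (mul_X_mem (mul_X_mem fun n => ?_))
  · rw [coeff_sub, coeff_C_mul, coeff_mul_C]; exact (h _ (hf n)).2.1
  · rw [coeff_mul_C, coeff_C_mul]; exact (h _ (hf n)).2.2

/-- conjugation by `1 + t β` -/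
noncomputable def cP (β : E) : E[X] →+ E[X] :=
  AddMonoidHom.mk' (fun f => PP β * f * PP (-β)) fun _ _ => by rw [mul_add, add_mul]

theorem cP_injective (h : β * β = 0) : Function.Injective (cP β) :=
  (injective_iff_map_eq_zero _).2 fun f hf => by
    have := congrArg (fun g => PP (-β) * g * PP β) (show PP β * f * PP (-β) = 0 from hf)
    simpa only [← mul_assoc, PP_mul h, mul_assoc _ (PP (-β)), one_mul, mul_one, mul_zero,
      zero_mul] using this

/-- The limit of the conjugates of `U` under `1 + t β`. -/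
noncomputable def lim (β : E) (U : AddSubgroup E) : AddSubgroup E :=
  AddSubgroup.closure {c | ∃ g ∈ (pol U).map (cP β), ∃ n, g.natDegree ≤ n ∧ g.coeff n = c}

theorem lim_mono {U W : AddSubgroup E} (h : U ≤ W) : lim β U ≤ lim β W :=
  AddSubgroup.closure_mono fun _ ⟨_, ⟨f, hf, e⟩, h'⟩ => ⟨_, ⟨f, fun n => h (hf n), e⟩, h'⟩

theorem lim_le {U W : AddSubgroup E} (h : ∀ u ∈ U, u ∈ W ∧ β * u - u * β ∈ W ∧ β * u * β ∈ W) :
    lim β U ≤ W := (AddSubgroup.closure_le _).2 (by
  rintro _ ⟨_, ⟨f, hf, rfl⟩, n, -, rfl⟩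
  exact conj_mem h hf n)

theorem lim_mul (hβ : β * β = 0) {U W : AddSubgroup E} (h : ∀ u ∈ U, ∀ w ∈ W, u * w = 0)
    {a b : E} (ha : a ∈ lim β U) (hb : b ∈ lim β W) : a * b = 0 := by
  induction ha using AddSubgroup.closure_induction with
  | zero => simp
  | add _ _ _ _ h1 h2 => rw [add_mul, h1, h2, add_zero]
  | neg _ _ h1 => rw [neg_mul, h1, neg_zero]
  | mem a ha =>
  induction hb using AddSubgroup.closure_induction with
  | zero => simp
  | add _ _ _ _ h1 h2 => rw [mul_add, h1, h2, add_zero]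
  | neg _ _ h1 => rw [mul_neg, h1, neg_zero]
  | mem b hb =>
  obtain ⟨_, ⟨f, hf, rfl⟩, n, hn, rfl⟩ := ha
  obtain ⟨_, ⟨g, hg, rfl⟩, m, hm, rfl⟩ := hb
  have : f * g = 0 := by
    ext k
    rw [coeff_mul, coeff_zero]
    exact Finset.sum_eq_zero fun c _ => h _ (hf _) _ (hg _)
  rw [← coeff_mul_add_eq_of_natDegree_le hn hm]
  change (PP β * f * PP (-β) * (PP β * g * PP (-β))).coeff _ = 0
  simp only [mul_assoc]
  rw [← mul_assoc (PP (-β)), PP_mul hβ, one_mul, ← mul_assoc f, this]
  simp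

theorem mem_of_inv (hβ : β * β = 0) {U : AddSubgroup E} {u : E} (h1 : u ∈ U)
    (h2 : β * u - u * β ∈ U) (h3 : β * u * β ∈ U) (k : ℕ) :
    C u * X ^ k ∈ (pol U).map (cP β) := by
  refine ⟨PP (-β) * (C u * X ^ k) * PP (- -β), conj_mem (U := AddSubgroup.zmultiples u) ?_
    fun n => ?_, ?_⟩
  · rintro _ ⟨n, rfl⟩
    refine ⟨zsmul_mem h1 n, ?_, ?_⟩
    · have := neg_mem (zsmul_mem h2 n)
      rwa [show -(n • (β * u - u * β)) = -β * (n • u) - (n • u) * -β by
        simp only [mul_smul_comm, smul_mul_assoc, smul_sub, neg_mul, mul_neg, smul_neg]; abel] at this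
    · have := zsmul_mem h3 n
      rwa [show n • (β * u * β) = -β * (n • u) * -β by
        simp only [mul_smul_comm, smul_mul_assoc, neg_mul, mul_neg, neg_neg, smul_neg]] at this
  · rw [coeff_C_mul_X_pow]; split_ifs <;> simp
  · change PP β * _ * PP (-β) = _
    rw [neg_neg]
    simp only [← mul_assoc, PP_mul' hβ, one_mul]
    rw [mul_assoc _ (PP β), PP_mul' hβ, mul_one]

theorem mem_lim_of_inv (hβ : β * β = 0) {U : AddSubgroup E} {u : E} (h1 : u ∈ U)
    (h2 : β * u - u * β ∈ U) (h3 : β * u * β ∈ U) : u ∈ lim β U :=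
  AddSubgroup.subset_closure ⟨_, mem_of_inv hβ h1 h2 h3 0, 0, by simp, by simp⟩

theorem cP_C (u : E) : cP β (C u) = C u + C (β * u - u * β) * X - C (β * u * β) * X ^ 2 := by
  change PP β * _ * _ = _
  rw [conj_eq]
  simp [sq, mul_assoc]

theorem mem_lim_two {U : AddSubgroup E} {u : E} (h1 : u ∈ U) : β * u * β ∈ lim β U := by
  refine neg_mem_iff.1 (AddSubgroup.subset_closure ⟨_, ⟨_, C_mem h1, rfl⟩, 2, ?_, ?_⟩)
  · rw [cP_C]; compute_degree
  · rw [cP_C, coeff_sub, coeff_add, coeff_C_mul_X, coeff_C_mul_X_pow, coeff_C]; simp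

theorem mem_lim_one (hβ : β * β = 0) {U : AddSubgroup E} {u : E} (h1 : u ∈ U)
    (h2 : β * u * β ∈ U) : β * u - u * β ∈ lim β U := by
  refine AddSubgroup.subset_closure ⟨_, add_mem ⟨_, C_mem h1, rfl⟩ (mem_of_inv hβ h2
    (by simp [← mul_assoc, hβ, mul_assoc _ β β]) (by simp [← mul_assoc, hβ]) 2), 1, ?_, ?_⟩
  · rw [cP_C, sub_add_cancel]; compute_degree
  · rw [cP_C, sub_add_cancel, coeff_add, coeff_C_mul_X, coeff_C]; simp

theorem le_of_pow_le {a b : ℕ} (hb : 0 < b) (h : ∀ n, a ^ n ≤ b ^ (n + 2)) : a ≤ b := by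
  by_contra hc
  have h1 : (b + 1) ^ (b ^ 3 + 1) ≤ b ^ (b ^ 3 + 1 + 2) :=
    (Nat.pow_le_pow_left (by omega) _).trans (h _)
  have h2 : ∀ n, b ^ (n + 1) + (n + 1) * b ^ n ≤ (b + 1) ^ (n + 1) := fun n => by
    induction n with
    | zero => simp
    | succ n ih =>
      calc _ ≤ (b ^ (n + 1) + (n + 1) * b ^ n) * (b + 1) := by
            ring_nf; nlinarith [Nat.zero_le (b ^ n * n), Nat.zero_le (b ^ n)]
        _ ≤ _ := by rw [pow_succ (b + 1) (n + 1)]; exact Nat.mul_le_mul_right _ ih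
  have h3 := (h2 (b ^ 3)).trans h1
  have h4 : b ^ (b ^ 3 + 1 + 2) = b ^ 3 * b ^ b ^ 3 := by ring
  have h5 : 0 < b ^ b ^ 3 := pow_pos hb _
  rw [h4, add_mul] at h3
  omega

variable [Finite E]

theorem card_le_lim (hβ : β * β = 0) (U : AddSubgroup E) : Nat.card U ≤ Nat.card (lim β U) := by
  let F : ℕ → AddSubgroup E[X] := fun n => (pol U).map (cP β) ⊓ (degreeLT E n).toAddSubgroup
  have fin : ∀ n, Finite (F n) := fun n =>
    haveI : Finite (degreeLT E n) := Finite.of_equiv _ (degreeLTEquiv E n).symm.toEquiv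
    Finite.of_injective (fun f : F n => (⟨f.1, f.2.2⟩ : degreeLT E n)) fun _ _ e =>
      Subtype.ext (congrArg Subtype.val e :)
  have h1 : ∀ n, Nat.card (F n) ≤ Nat.card (lim β U) ^ n := fun n => by
    induction n with
    | zero =>
      rw [pow_zero]
      exact Finite.card_le_one_iff_subsingleton.2 ⟨fun a b => Subtype.ext (by
        have ha := mem_degreeLT.1 a.2.2
        have hb := mem_degreeLT.1 b.2.2
        simp only [CharP.cast_eq_zero, Nat.WithBot.lt_zero_iff, degree_eq_bot] at ha hb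
        rw [ha, hb])⟩
    | succ n ih =>
      let φ : F (n + 1) →+ lim β U := AddMonoidHom.mk' (fun f => ⟨f.1.coeff n,
        AddSubgroup.subset_closure ⟨_, f.2.1, n, Nat.lt_succ_iff.1 (by
          by_cases h0 : f.1 = 0
          · simp [h0]
          · exact (natDegree_lt_iff_degree_lt h0).2 (mem_degreeLT.1 f.2.2)), rfl⟩⟩)
        fun _ _ => Subtype.ext (coeff_add _ _ _)
      haveI := fin n
      haveI := fin (n + 1)
      have k1 : Nat.card φ.ker ≤ Nat.card (F n) := Nat.card_le_card_of_injective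
        (fun f => ⟨f.1.1, f.1.2.1, mem_degreeLT.2 ((degree_lt_iff_coeff_zero _ _).2 fun m hm => by
          rcases hm.lt_or_eq with hm | rfl
          · exact (degree_lt_iff_coeff_zero _ _).1 (mem_degreeLT.1 f.1.2.2) m hm
          · exact congrArg Subtype.val f.2)⟩)
        fun _ _ e => Subtype.ext (Subtype.ext (congrArg Subtype.val e :))
      rw [← φ.ker.card_mul_index, AddSubgroup.index_ker, pow_succ]
      exact Nat.mul_le_mul (k1.trans ih) (AddSubgroup.card_le_card_addGroup _)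
  refine le_of_pow_le Nat.card_pos fun n => le_trans ?_ (h1 (n + 2))
  haveI := fin (n + 2)
  have k : Nat.card U ^ n = Nat.card (Fin n → U) := by
    rw [Nat.card_fun, Nat.card_eq_fintype_card (α := Fin n), Fintype.card_fin]
  rw [k]
  refine Nat.card_le_card_of_injective (fun c => ⟨cP β ((degreeLTEquiv E n).symm
    fun i => (c i : E)), ⟨_, fun m => ?_, rfl⟩, ?_⟩) fun c c' e => ?_
  · by_cases hm : m < n
    · have := congrFun ((degreeLTEquiv E n).apply_symm_apply fun i => (c i : E)) ⟨m, hm⟩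
      exact (congrArg (· ∈ U) this).mpr (c _).2
    · rw [(degree_lt_iff_coeff_zero _ _).1 (mem_degreeLT.1 (Subtype.prop _)) m (by omega)]
      exact zero_mem _
  · generalize (degreeLTEquiv E n).symm _ = f
    have hf := (degree_lt_iff_coeff_zero _ _).1 (mem_degreeLT.1 f.2)
    refine mem_degreeLT.2 ((degree_lt_iff_coeff_zero _ _).2 fun m hm => ?_)
    obtain ⟨m, rfl⟩ : ∃ k, m = k + 1 + 1 := ⟨m - 2, by omega⟩
    change (PP β * _ * _).coeff _ = 0
    rw [conj_eq]
    simp [coeff_mul_X, hf m (by omega), hf (m + 1) (by omega), hf (m + 1 + 1) (by omega)]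
  · have := (degreeLTEquiv E n).symm.injective (Subtype.ext (cP_injective hβ
      (congrArg Subtype.val e)))
    exact funext fun i => Subtype.ext (congrFun this i)

end CfsgH3.Lim
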