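import Cfsg.Agent.H3.Lim1
import Cfsg.Agent.H3.Basic
import Cfsg.Agent.H1.Basic

/-! Quadratic subgroups that are normal in their normal closure. -/

set_option autoImplicit false
set_option linter.unusedSectionVars false
set_option maxHeartbeats 400000

namespace CfsgH3.Lim

open Subgroup CfsgH1
open scoped commutatorElement

universe u

variable {E : Type*} [Ring E]

theorem exp_identity (h2 : ∀ w : E, w + w = 0 → w = 0) {x y z a b c : E} (xx : x * x = 0)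
    (yy : y * y = 0) (zz : z * z = 0) (hs : (x + y + z) * (x + y + z) = 0)
    (ha : a + a = -(x * y - y * x)) (hb : b + b = -(x * z - z * x)) (hc : c + c = -(y * z - z * y))
    (xa : x * a = 0) (ay : a * y = 0) (ya : y * a = 0) (xb : x * b = 0) (bz : b * z = 0)
    (zb : z * b = 0) (yc : y * c = 0) (cz : c * z = 0) (zc : z * c = 0) (ab : a * b = 0)
    (ac : a * c = 0) (bc : b * c = 0) :
    (1 + x) * ((1 + a) * (1 + b)) * (1 + y) * (1 + c) * (1 + z) = 1 + (x + y + z) := by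
  have xyx : x * y * x = 0 := by
    linear_combination (norm := noncomm_ring) xx * y - x * ha + xa + xa
  have xzx : x * z * x = 0 := by
    linear_combination (norm := noncomm_ring) xx * z - x * hb + xb + xb
  have yxy : y * x * y = 0 := by
    linear_combination (norm := noncomm_ring) yy * x + y * ha - ya - ya
  have yzy : y * z * y = 0 := by
    linear_combination (norm := noncomm_ring) yy * z - y * hc + yc + yc
  have zxz : z * x * z = 0 := by
    linear_combination (norm := noncomm_ring) zz * x + z * hb - zb - zb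
  have zyz : z * y * z = 0 := by
    linear_combination (norm := noncomm_ring) zz * y + z * hc - zc - zc
  have byz : b * y * z = 0 := by
    linear_combination (norm := noncomm_ring) bz * y + b * hc - bc - bc
  have s2 : x * y + y * x + x * z + z * x + y * z + z * y = 0 := by
    linear_combination (norm := noncomm_ring) hs - xx - yy - zz
  have t : z * x * y + y * x * z = 0 := by
    linear_combination (norm := noncomm_ring) z * s2 - s2 * x + y * s2 - zxz - zz * x - zyz - zz * y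
      + xyx + y * xx + xzx + z * xx - yxy - yy * x - yy * z - yzy
  have e : (1 + x) * ((1 + a) * (1 + b)) * (1 + y) * (1 + c) * (1 + z) =
      1 + (x + y + z) + (a + b + c + x * y + x * z + y * z + b * y + x * c + a * z + x * y * z) := by
    have e1 : (1 + x) * ((1 + a) * (1 + b)) = 1 + x + a + b := by
      linear_combination (norm := noncomm_ring) ab + xa + xb + xa * b
    have e2 : (1 + y) * (1 + c) * (1 + z) = 1 + y + c + z + y * z := by
      linear_combination (norm := noncomm_ring) yc + cz + yc * z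
    rw [mul_assoc, mul_assoc, ← mul_assoc (1 + y), e1, e2]
    linear_combination (norm := noncomm_ring) ay + ac + ay * z + bc + bz + byz
  rw [e, h2 (a + b + c + x * y + x * z + y * z + b * y + x * c + a * z + x * y * z) (by
    linear_combination (norm := noncomm_ring) ha + hb + hc + s2 + hb * y + x * hc + ha * z + t),
    add_zero]

variable {G : Type u} [Group G] (ρ : G →* E)

/-- `A` acts quadratically. -/
def Quad (A : Subgroup G) : Prop := ∀ a ∈ A, ∀ b ∈ A, (ρ a - 1) * (ρ b - 1) = 0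

/-- The elements fixed by `A` under left multiplication. -/
def ann (A : Subgroup G) : AddSubgroup E where
  carrier := {φ | ∀ a ∈ A, (ρ a - 1) * φ = 0}
  zero_mem' := fun _ _ => mul_zero _
  add_mem' := fun h1 h2 a ha => by rw [mul_add, h1 a ha, h2 a ha, add_zero]
  neg_mem' := fun h a ha => by rw [mul_neg, h a ha, neg_zero]

variable {ρ} {A B K K' : Subgroup G} {b : G}

theorem Quad.mono (h : Quad ρ B) (hAB : A ≤ B) : Quad ρ A := fun a ha b hb => h a (hAB ha) b (hAB hb)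

theorem Quad.mul (h : Quad ρ A) {a b : G} (ha : a ∈ A) (hb : b ∈ A) :
    ρ (a * b) - 1 = (ρ a - 1) + (ρ b - 1) := by
  rw [map_mul]; linear_combination (norm := noncomm_ring) h a ha b hb

theorem Quad.inv (h : Quad ρ A) {a : G} (ha : a ∈ A) : ρ a⁻¹ - 1 = -(ρ a - 1) := by
  rw [eq_neg_iff_add_eq_zero, ← h.mul (inv_mem ha) ha]; simp

theorem Quad.pow (h : Quad ρ A) {a : G} (ha : a ∈ A) (n : ℕ) : ρ (a ^ n) - 1 = n • (ρ a - 1) := by
  induction n with
  | zero => simp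
  | succ n ih => rw [pow_succ, h.mul (pow_mem ha n) ha, ih, succ_nsmul]

theorem Quad.cj (h : Quad ρ A) (g : G) : Quad ρ (cj g A) := by
  rintro _ ⟨a, ha, rfl⟩ _ ⟨b, hb, rfl⟩
  have k : ∀ a, ρ (g * a * g⁻¹) - 1 = ρ g * (ρ a - 1) * ρ g⁻¹ := fun a => by
    rw [mul_sub, sub_mul, mul_one, ← map_mul, ← map_mul, ← map_mul, mul_inv_cancel, map_one]
  change (ρ (g * a * g⁻¹) - 1) * (ρ (g * b * g⁻¹) - 1) = 0
  rw [k, k]
  calc _ = ρ g * ((ρ a - 1) * (ρ g⁻¹ * ρ g) * (ρ b - 1)) * ρ g⁻¹ := by noncomm_ring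
    _ = 0 := by rw [← map_mul, inv_mul_cancel, map_one, mul_one, h a ha b hb]; simp

theorem Quad.comm (hρ : Function.Injective ρ) (h : Quad ρ A) {a b : G} (ha : a ∈ A) (hb : b ∈ A) :
    a * b = b * a := hρ (sub_left_injective (b := 1) (by
  simp only [h.mul ha hb, h.mul hb ha, add_comm]))

/-- logarithms of a quadratic subgroup -/
def Quad.lg (h : Quad ρ A) : AddSubgroup E where
  carrier := {x | ∃ a ∈ A, ρ a - 1 = x}
  zero_mem' := ⟨1, one_mem _, by simp⟩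
  add_mem' := by
    rintro _ _ ⟨a, ha, rfl⟩ ⟨b, hb, rfl⟩
    exact ⟨_, mul_mem ha hb, h.mul ha hb⟩
  neg_mem' := by
    rintro _ ⟨a, ha, rfl⟩
    exact ⟨_, inv_mem ha, h.inv ha⟩

theorem Quad.card_lg (hρ : Function.Injective ρ) (h : Quad ρ A) : Nat.card A = Nat.card h.lg :=
  Nat.card_congr (Equiv.ofBijective (fun a => ⟨ρ a - 1, a, a.2, rfl⟩)
    ⟨fun _ _ e => Subtype.ext (hρ (sub_left_injective (congrArg Subtype.val e :))),
      fun ⟨_, a, ha, e⟩ => ⟨⟨a, ha⟩, Subtype.ext e⟩⟩)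

theorem comm_val (hA : Quad ρ A) (hB : Quad ρ B) {a b : G} (ha : a ∈ A) (hb : b ∈ B)
    (h1 : ⁅a, b⁆ ∈ A) (h2 : ⁅a, b⁆ ∈ B) :
    ρ ⁅a, b⁆ - 1 = (ρ a - 1) * (ρ b - 1) - (ρ b - 1) * (ρ a - 1) := by
  have e : ρ ⁅a, b⁆ * ρ b * ρ a = ρ a * ρ b := by
    simp only [← map_mul, commutatorElement_def]; congr 1; group
  linear_combination (norm := noncomm_ring) e - hA _ h1 a ha - hB _ h2 b hb -
    hB _ h2 b hb * (ρ a - 1)

variable {p : ℕ} (hp : Odd p) (hE : ∀ w : E, p • w = 0)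

section XX
variable (hA : Quad ρ A) [K'.Normal] (hK : ⁅K, ⊤⁆ ≤ K')

theorem mk_comm (hK : ⁅K, ⊤⁆ ≤ K') {k : G} (hk : k ∈ K) (g : G) :
    Commute (k : G ⧸ K') (g : G ⧸ K') := by
  rw [← commutatorElement_eq_one_iff_commute, ← QuotientGroup.mk'_apply, ← QuotientGroup.mk'_apply,
    ← map_commutatorElement]
  exact (QuotientGroup.eq_one_iff _).2 (hK (commutator_mem_commutator hk (mem_top g)))

variable (b) in
/-- sums of logarithms from three conjugates -/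
def XX : AddSubgroup E where
  carrier := {w | ∃ x ∈ A ⊓ K, ∃ y ∈ cj b A ⊓ K, ∃ z ∈ cj (b * b) A ⊓ K,
    ((x : G ⧸ K') * y * z = 1) ∧ w = (ρ x - 1) + (ρ y - 1) + (ρ z - 1)}
  zero_mem' := ⟨1, one_mem _, 1, one_mem _, 1, one_mem _, by simp, by simp⟩
  add_mem' := by
    rintro _ _ ⟨x, hx, y, hy, z, hz, e, rfl⟩ ⟨x', hx', y', hy', z', hz', e', rfl⟩
    refine ⟨_, mul_mem hx hx', _, mul_mem hy hy', _, mul_mem hz hz', ?_, ?_⟩
    · simp only [QuotientGroup.mk_mul]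
      calc _ = (x : G ⧸ K') * (x' * y) * (y' * z) * z' := by group
        _ = x * y * (x' * z) * y' * z' := by
          rw [(mk_comm hK hx'.2 y).eq, (mk_comm hK hy'.2 z).eq]; group
        _ = (x * y * z) * (x' * y' * z') := by rw [(mk_comm hK hx'.2 z).eq]; group
        _ = 1 := by rw [e, e', one_mul]
    · rw [hA.mul hx.1 hx'.1, (hA.cj b).mul hy.1 hy'.1, (hA.cj _).mul hz.1 hz'.1]; abel
  neg_mem' := by
    rintro _ ⟨x, hx, y, hy, z, hz, e, rfl⟩
    refine ⟨_, inv_mem hx, _, inv_mem hy, _, inv_mem hz, ?_, ?_⟩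
    · simp only [QuotientGroup.mk_inv]
      rw [← mul_inv_rev, ← mul_inv_rev, (mk_comm hK hz.2 _).mul_right (mk_comm hK hz.2 _),
        (mk_comm hK hy.2 x).eq, e, inv_one]
    · rw [hA.inv hx.1, (hA.cj b).inv hy.1, (hA.cj _).inv hz.1]; abel

include hp hE in
theorem exists_of_mem_XX (hN : ∀ m ∈ zpowers b, ∀ n ∈ zpowers b, cj m A ≤ normalizer (cj n A : Set G))
    {w : E} (hw : w ∈ XX b hA hK) (h2 : w * w = 0) : ∃ g ∈ K', ρ g - 1 = w := by
  obtain ⟨x, hx, y, hy, z, hz, e, rfl⟩ := hw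
  obtain ⟨h, rfl⟩ := hp
  have hh : ∀ w : E, h • w + h • w = -w := fun w => by
    rw [eq_neg_iff_add_eq_zero, ← hE w, succ_nsmul, two_mul, add_nsmul]
  have key : ∀ m ∈ zpowers b, ∀ n ∈ zpowers b, ∀ x ∈ cj m A, ∀ y ∈ cj n A,
      ⁅x, y⁆ ^ h ∈ cj m A ∧ ⁅x, y⁆ ^ h ∈ cj n A ∧ (ρ (⁅x, y⁆ ^ h) - 1) + (ρ (⁅x, y⁆ ^ h) - 1) =
        -((ρ x - 1) * (ρ y - 1) - (ρ y - 1) * (ρ x - 1)) := fun m hm n hn x hx y hy => by
    have h1 := commutator_le_left_of_le_normalizer (hN n hn m hm) (commutator_mem_commutator hx hy)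
    have h2 := commutator_le_right_of_le_normalizer (hN m hm n hn) (commutator_mem_commutator hx hy)
    exact ⟨pow_mem h1 h, pow_mem h2 h, by
      rw [(hA.cj m).pow h1, hh, comm_val (hA.cj m) (hA.cj n) hx hy h1 h2]⟩
  have b0 : (1 : G) ∈ zpowers b := one_mem _
  have b1 := mem_zpowers b
  have b2 := mul_mem b1 b1
  have hx' : x ∈ cj 1 A := by rw [cj_one]; exact hx.1
  obtain ⟨a1, a2, a3⟩ := key _ b0 _ b1 x hx' y hy.1
  obtain ⟨c1, c2, c3⟩ := key _ b0 _ b2 x hx' z hz.1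
  obtain ⟨d1, d2, d3⟩ := key _ b1 _ b2 y hy.1 z hz.1
  have q0 := hA.cj 1
  have q1 := hA.cj b
  have q2 := hA.cj (b * b)
  have := exp_identity (fun w hw => by rw [← neg_eq_zero, ← hh, ← nsmul_add, hw, nsmul_zero])
    (q0 _ hx' _ hx') (q1 _ hy.1 _ hy.1) (q2 _ hz.1 _ hz.1) h2 a3 c3 d3 (q0 _ hx' _ a1)
    (q1 _ a2 _ hy.1) (q1 _ hy.1 _ a2) (q0 _ hx' _ c1) (q2 _ c2 _ hz.1) (q2 _ hz.1 _ c2)
    (q1 _ hy.1 _ d1) (q2 _ d2 _ hz.1) (q2 _ hz.1 _ d2) (q0 _ a1 _ c1) (q1 _ a2 _ d1) (q2 _ c2 _ d2)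
  simp only [add_sub_cancel, ← map_mul] at this
  refine ⟨_, ?_, by rw [this, add_sub_cancel_left]⟩
  have k : ∀ x ∈ K, ∀ y, ((⁅x, y⁆ ^ h : G) : G ⧸ K') = 1 := fun x hx y =>
    (QuotientGroup.eq_one_iff _).2 (pow_mem (hK (commutator_mem_commutator hx (mem_top y))) h)
  rw [← QuotientGroup.eq_one_iff]
  simp only [QuotientGroup.mk_mul, k x hx.2, k y hy.2, mul_one, e]

end XX

include hp hE in
theorem coef_mem (hb : (ρ b - 1) * (ρ b - 1) = 0) {W : AddSubgroup E} {a : G}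
    (h1 : (ρ (b * a * b⁻¹) - 1) - (ρ a - 1) ∈ W)
    (h2 : (ρ (b * b * a * (b * b)⁻¹) - 1) - (ρ (b * a * b⁻¹) - 1) ∈ W) :
    (ρ b - 1) * (ρ a - 1) - (ρ a - 1) * (ρ b - 1) ∈ W ∧ (ρ b - 1) * (ρ a - 1) * (ρ b - 1) ∈ W := by
  obtain ⟨h, rfl⟩ := hp
  have i1 : ρ b * ρ b⁻¹ = 1 := by rw [← map_mul, mul_inv_cancel, map_one]
  have i2 : ρ b⁻¹ = 2 - ρ b := by
    linear_combination (norm := noncomm_ring) hb * ρ b⁻¹ + (2 - ρ b) * i1
  have k : (ρ b - 1) * (ρ a - 1) * (ρ b - 1) ∈ W := by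
    have := nsmul_mem (sub_mem h2 h1) h
    simp only [map_mul, mul_inv_rev, i2] at this
    convert this using 1
    set w := (ρ b - 1) * (ρ a - 1) * (ρ b - 1) with hw
    have e : ∀ v : E, v = -w + -w → w = h • v := fun v hv => by
      rw [hv, nsmul_add, ← add_nsmul, ← two_mul, neg_nsmul, eq_neg_iff_add_eq_zero, add_comm,
        ← succ_nsmul, hE]
    refine e _ ?_
    rw [hw]
    linear_combination (norm := noncomm_ring) hb * ρ a * (2 - ρ b) * (2 - ρ b) +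
      (2 * ρ b - 1) * ρ a * hb - 2 * hb
  refine ⟨?_, k⟩
  have := add_mem h1 k
  simp only [map_mul, i2] at this
  convert this using 1
  linear_combination (norm := noncomm_ring) hb

variable (ρ) in
/-- The replacement preorder. -/
def Le (A B : Subgroup G) : Prop :=
  Nat.card (ann ρ A) ≤ Nat.card (ann ρ B) ∧
    ∀ K : Subgroup G, K.Normal → Nat.card (A ⊓ K : Subgroup G) ≤ Nat.card (B ⊓ K : Subgroup G)

variable [Finite E] [Finite G] (hρ : Function.Injective ρ)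
include hp hE hρ

theorem step (hG : Group.IsNilpotent G) (hA : Quad ρ A) (hb : (ρ b - 1) * (ρ b - 1) = 0)
    (hN : ∀ m ∈ zpowers b, ∀ n ∈ zpowers b, cj m A ≤ normalizer (cj n A : Set G))
    (hn : b ∉ normalizer (A : Set G)) : ∃ B, Quad ρ B ∧ B ≤ normalClosure A ∧ Le ρ A B ∧
      ∃ K : Subgroup G, K.Normal ∧ Nat.card (A ⊓ K : Subgroup G) < Nat.card (B ⊓ K : Subgroup G) := by
  have hl : ∀ u ∈ hA.lg, ∀ w ∈ hA.lg, u * w = 0 := by
    rintro _ ⟨a, ha, rfl⟩ _ ⟨b, hb, rfl⟩; exact hA a ha b hb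
  have hU : ∀ u ∈ lim (ρ b - 1) hA.lg, ∀ w ∈ lim (ρ b - 1) hA.lg, u * w = 0 :=
    fun _ hu _ hw => lim_mul hb hl hu hw
  let B : Subgroup G :=
    { carrier := {g | ρ g - 1 ∈ lim (ρ b - 1) hA.lg}
      one_mem' := by simp
      mul_mem' := fun {x y} hx hy => by
        have : ρ (x * y) - 1 = (ρ x - 1) + (ρ y - 1) := by
          rw [map_mul]; linear_combination (norm := noncomm_ring) hU _ hx _ hy
        rw [Set.mem_setOf_eq, this]; exact add_mem hx hy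
      inv_mem' := fun {x} hx => by
        have i1 : ρ x * ρ x⁻¹ = 1 := by rw [← map_mul, mul_inv_cancel, map_one]
        have : ρ x⁻¹ - 1 = -(ρ x - 1) := by
          linear_combination (norm := noncomm_ring) hU _ hx _ hx * ρ x⁻¹ + (1 + 1 - ρ x) * i1
        rw [Set.mem_setOf_eq, this]; exact neg_mem hx }
  have hXX : ∀ (K K' : Subgroup G) [K.Normal] [K'.Normal] (hK : ⁅K, ⊤⁆ ≤ K'), ∀ a ∈ A ⊓ K,
      (ρ b - 1) * (ρ a - 1) - (ρ a - 1) * (ρ b - 1) ∈ XX b hA hK ∧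
        (ρ b - 1) * (ρ a - 1) * (ρ b - 1) ∈ XX b hA hK := fun K K' hKn _ hK a ha => by
    have m1 : b * a * b⁻¹ ∈ cj b A ⊓ K := ⟨conj_mem_cj b ha.1, hKn.conj_mem a ha.2 b⟩
    have m2 : b * b * a * (b * b)⁻¹ ∈ cj (b * b) A ⊓ K :=
      ⟨conj_mem_cj _ ha.1, hKn.conj_mem a ha.2 _⟩
    have e : ∀ g, ((g * a * g⁻¹ : G) : G ⧸ K') = a := fun g => by
      simp only [QuotientGroup.mk_mul, QuotientGroup.mk_inv, ← (mk_comm hK ha.2 g).eq,
        mul_inv_cancel_right]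
    refine coef_mem hp hE hb ⟨_, inv_mem ha, _, m1, 1, one_mem _, by simp [e], ?_⟩
      ⟨1, one_mem _, _, inv_mem m1, _, m2, ?_, ?_⟩
    · rw [hA.inv ha.1]; simp
    · rw [QuotientGroup.mk_inv, e, e]; simp
    · rw [(hA.cj b).inv m1.1]; simp
  have h1 : ∀ (K : Subgroup G) [K.Normal], ∀ w ∈ lim (ρ b - 1) (hA.mono (inf_le_left : A ⊓ K ≤ A)).lg,
      w ∈ lim (ρ b - 1) hA.lg ∧ ∃ g ∈ K, ρ g - 1 = w := fun K _ w hw => by
    have k := lim_mono (show (hA.mono (inf_le_left : A ⊓ K ≤ A)).lg ≤ hA.lg from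
      fun _ ⟨a, ha, e⟩ => ⟨a, ha.1, e⟩) hw
    refine ⟨k, exists_of_mem_XX hp hE hA (commutator_le_left K ⊤) hN (lim_le ?_ hw) (hU _ k _ k)⟩
    rintro _ ⟨a, ha, rfl⟩
    exact ⟨⟨a, ha, 1, one_mem _, 1, one_mem _, by simpa using ha.2, by simp⟩, hXX K K _ a ha⟩
  refine ⟨B, fun x hx y hy => hU _ hx _ hy, fun x hx => ?_, ⟨?_, fun K _ => ?_⟩, ?_⟩
  · obtain ⟨-, g, hg, e⟩ := h1 (normalClosure A) _ (lim_mono
      (show hA.lg ≤ (hA.mono (inf_le_left : A ⊓ normalClosure A ≤ A)).lg from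
        fun _ ⟨a, ha, e⟩ => ⟨a, ⟨ha, subset_normalClosure ha⟩, e⟩) hx)
    exact hρ (sub_left_injective e) ▸ hg
  · refine (card_le_lim hb _).trans (AddSubgroup.card_le_of_le fun w hw x hx =>
      lim_mul hb ?_ hx hw)
    rintro _ ⟨a, ha, rfl⟩ w hw
    exact hw a ha
  · rw [(hA.mono inf_le_left).card_lg hρ]
    refine (card_le_lim hb _).trans ?_
    choose f hf he using fun w : lim (ρ b - 1) (hA.mono (inf_le_left : A ⊓ K ≤ A)).lg =>
      (h1 K w w.2).2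
    exact Nat.card_le_card_of_injective (fun w => ⟨f w, show ρ _ - 1 ∈ _ from
      (he w).symm ▸ (h1 K w w.2).1, hf w⟩) fun w w' e => Subtype.ext (by
        rw [← he w, ← he w', show f w = f w' from congrArg Subtype.val e])
  obtain ⟨k, hk1, hk2⟩ := Nat.exists_not_and_succ_of_not_zero_of_exists
    (p := fun k => ∀ a ∈ A ⊓ (⊤ : Subgroup G).lowerCentralSeries k, b * a * b⁻¹ ∈ A)
    (fun h => hn (mem_normalizer_of_cj_le (cj_le_iff.2 fun a ha => h a ⟨ha, mem_top a⟩)))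
    (let ⟨n, hn⟩ := Subgroup.nilpotent_iff_lowerCentralSeries.1 hG; ⟨n, fun a ha => by
      rw [hn] at ha; rw [mem_bot.1 ha.2]; simp⟩)
  refine ⟨(⊤ : Subgroup G).lowerCentralSeries (k + 1), inferInstance, card_lt_of_lt (lt_of_le_of_ne
    (fun a ha => ⟨?_, ha.2⟩) fun e => hk1 fun a ha => ?_)⟩
  · have m1 := hk2 a ha
    have m2 := hk2 _ ⟨m1, Normal.conj_mem inferInstance a ha.2 b⟩
    obtain ⟨c1, c2⟩ := coef_mem hp hE hb (W := hA.lg) (a := a)
      (sub_mem ⟨_, m1, rfl⟩ ⟨_, ha.1, rfl⟩) (sub_mem ⟨_, m2, by congr 2; group⟩ ⟨_, m1, rfl⟩)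
    exact mem_lim_of_inv hb ⟨a, ha.1, rfl⟩ c1 c2
  · have hK : ⁅(⊤ : Subgroup G).lowerCentralSeries k, (⊤ : Subgroup G)⁆ ≤
        (⊤ : Subgroup G).lowerCentralSeries (k + 1) := le_rfl
    obtain ⟨c1, c2⟩ := hXX _ _ hK a ha
    have key : ∀ w ∈ XX b hA hK, w ∈ lim (ρ b - 1) hA.lg → w ∈ hA.lg := fun w h1 h2 => by
      obtain ⟨g, hg, rfl⟩ := exists_of_mem_XX hp hE hA hK hN h1 (hU _ h2 _ h2)
      exact ⟨g, (e.ge ⟨h2, hg⟩).1, rfl⟩
    have d2 := key _ c2 (mem_lim_two ⟨a, ha.1, rfl⟩)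
    obtain ⟨g, hg, e'⟩ := sub_mem (add_mem (show ρ a - 1 ∈ hA.lg from ⟨a, ha.1, rfl⟩)
      (key _ c1 (mem_lim_one hb ⟨a, ha.1, rfl⟩ d2))) d2
    have i1 : ρ b * ρ b⁻¹ = 1 := by rw [← map_mul, mul_inv_cancel, map_one]
    have i2 : ρ b⁻¹ = 2 - ρ b := by
      linear_combination (norm := noncomm_ring) hb * ρ b⁻¹ + (2 - ρ b) * i1
    refine hρ (show ρ g = ρ (b * a * b⁻¹) from ?_) ▸ hg
    simp only [map_mul, i2]
    linear_combination (norm := noncomm_ring) e' + hb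

end CfsgH3.Lim
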