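import Cfsg.Agent.H3.Lim2

/-! Replacement of a quadratic subgroup by one that is normal in its normal closure. -/

set_option autoImplicit false
set_option linter.unusedSectionVars false
set_option maxHeartbeats 400000

namespace CfsgH3.Lim

open Subgroup CfsgH1
open scoped commutatorElement

universe u

variable {E : Type*} [Ring E] [Finite E] {p : ℕ} (hp : Odd p) (hE : ∀ w : E, p • w = 0)

theorem Le.trans' {G : Type u} [Group G] {ρ : G →* E} {A B C : Subgroup G} (h : Le ρ A B)
    (h' : Le ρ B C) : Le ρ A C :=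
  ⟨h.1.trans h'.1, fun K hK => (h.2 K hK).trans (h'.2 K hK)⟩

include hp hE in
theorem main (n : ℕ) : ∀ (G : Type u) [Group G] [Finite G] (ρ : G →* E), Nat.card G = n →
    Group.IsNilpotent G → Function.Injective ρ → ∀ A : Subgroup G, Quad ρ A →
    ∃ B, Quad ρ B ∧ B ≤ normalClosure A ∧ Le ρ A B ∧ normalClosure B ≤ normalizer (B : Set G) := by
  induction n using Nat.strong_induction_on with
  | _ n ih =>
  intro G _ _ ρ hn hG hρ A hA
  classical
  haveI : Fintype (Subgroup G) := Fintype.ofFinite _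
  let f : Subgroup G → ℕ := fun B =>
    ∑ K ∈ Finset.univ.filter (fun K : Subgroup G => K.Normal), Nat.card (B ⊓ K : Subgroup G)
  have hf : ∀ {B C}, Le ρ B C → f B ≤ f C := fun h =>
    Finset.sum_le_sum fun K hK => h.2 K (Finset.mem_filter.1 hK).2
  obtain ⟨A1, ⟨q1, c1, l1⟩, hmax⟩ := Set.exists_max_image
    {B : Subgroup G | Quad ρ B ∧ B ≤ normalClosure A ∧ Le ρ A B} f (Set.toFinite _)
    ⟨A, hA, le_normalClosure, le_rfl, fun _ _ => le_rfl⟩
  by_cases hN : normalClosure (A1 : Set G) = ⊤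
  · refine ⟨A1, q1, c1, l1, ?_⟩
    rcases eq_top_or_exists_le_coatom A1 with rfl | ⟨M, hM, hAM⟩
    · rw [normalizer_eq_top]; exact le_top
    · haveI := NormalizerCondition.normal_of_coatom M normalizerCondition_of_isNilpotent hM
      exact absurd (top_le_iff.1 (hN.ge.trans (normalClosure_le_normal hAM))) hM.1
  set N := normalClosure (A1 : Set G) with hNd
  have hNA : N ≤ normalClosure A := normalClosure_le_normal c1
  obtain ⟨B, q2, -, l2, n2⟩ := ih _ (hn ▸ card_top (G := G) ▸ card_lt_of_lt (lt_top_iff_ne_top.2 hN)) N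
    (ρ.comp N.subtype) rfl inferInstance (hρ.comp N.subtype_injective) (A1.subgroupOf N)
    fun a ha b hb => q1 _ ha _ hb
  set A2 := B.map N.subtype with hA2
  have q2' : Quad ρ A2 := by
    rintro _ ⟨a, ha, rfl⟩ _ ⟨b, hb, rfl⟩; exact q2 a ha b hb
  have h2N : A2 ≤ N := map_subtype_le _
  have l2' : Le ρ A1 A2 := by
    refine ⟨le_trans (AddSubgroup.card_le_of_le ?_) (l2.1.trans
      (AddSubgroup.card_le_of_le ?_)), fun K hK => ?_⟩
    · exact fun w hw a ha => hw a.1 ha
    · rintro w hw _ ⟨a, ha, rfl⟩; exact hw a ha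
    · have := l2.2 (K.subgroupOf N) inferInstance
      rw [← card_map_of_injective N.subtype_injective,
        ← card_map_of_injective (K := B ⊓ _) N.subtype_injective] at this
      refine le_trans (card_le_of_le ?_) (this.trans (card_le_of_le ?_))
      · exact fun x hx => ⟨⟨x, subset_normalClosure hx.1⟩, hx, rfl⟩
      rintro _ ⟨x, hx, rfl⟩
      exact ⟨⟨x, hx.1, rfl⟩, hx.2⟩
  refine ⟨A2, q2', h2N.trans hNA, l1.trans' l2', (closure_le _).2 fun b hb => ?_⟩
  obtain ⟨a, ha, hab⟩ := Group.mem_conjugatesOfSet_iff.1 hb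
  obtain ⟨g, rfl⟩ := isConj_iff.1 hab
  by_contra hb'
  have hbN : zpowers (g * a * g⁻¹) ≤ N :=
    (zpowers_le).2 (Normal.conj_mem inferInstance a (h2N ha) g)
  have key : ∀ m ∈ N, cj m A2 ≤ normalizer (A2 : Set G) := fun m hm => by
    rintro _ ⟨_, ⟨x, hx, rfl⟩, rfl⟩
    have := n2 (Normal.conj_mem inferInstance x (subset_normalClosure hx) ⟨m, hm⟩)
    exact le_normalizer_map N.subtype ⟨_, this, rfl⟩
  obtain ⟨C, q3, c3, l3, K, hK, hlt⟩ := step hp hE hρ hG q2'
    (q2'.cj g _ (conj_mem_cj g ha) _ (conj_mem_cj g ha)) (fun m hm k hk => by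
      rw [← cj_normalizer, le_cj_iff_cj_inv_le, cj_cj]
      exact key _ (mul_mem (inv_mem (hbN hk)) (hbN hm))) hb'
  exact absurd (hmax C ⟨q3, c3.trans (normalClosure_le_normal (h2N.trans hNA)),
    (l1.trans' l2').trans' l3⟩) (not_le.2 ((hf l2').trans_lt (Finset.sum_lt_sum
      (fun K hK => l3.2 K (Finset.mem_filter.1 hK).2) ⟨K, by simpa using hK, hlt⟩)))

end CfsgH3.Lim
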