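import Cfsg.Agent.H3.Lim3
import Cfsg.Agent.H3.FFRep

/-! Quadratic offenders that are normal in their normal closure. -/

set_option autoImplicit false
set_option linter.unusedSectionVars false
set_option maxHeartbeats 400000

namespace CfsgH3.Lim

open Subgroup CfsgH1

variable {H : Type*} [Group H] [Finite H] {V : Type*} [AddCommGroup V] [Finite V]
  [DistribMulAction H V] {p : ℕ} [hp : Fact p.Prime]

theorem card_ann (hV : ∀ v : V, p • v = 0) : ∃ d, (d = 0 → Subsingleton V) ∧ ∀ A : Subgroup H,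
    Nat.card (ann (DistribMulAction.toAddMonoidEnd H V) A) = Nat.card (fx V A) ^ d := by
  haveI : Module (ZMod p) V := AddCommGroup.zmodModule hV
  refine ⟨Module.finrank (ZMod p) V, fun h => (Module.finrank_zero_iff (R := ZMod p)).1 h, fun A => ?_⟩
  haveI : Module (ZMod p) (fx V A) := AddCommGroup.zmodModule fun v => Subtype.ext (hV v.1)
  let e : ann (DistribMulAction.toAddMonoidEnd H V) A ≃ (V →+ fx V A) :=
    { toFun := fun φ => AddMonoidHom.codRestrict (φ.1 : V →+ V) _ fun v a ha =>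
        sub_eq_zero.1 (DFunLike.congr_fun (φ.2 a ha) v)
      invFun := fun ψ => ⟨((fx V A).subtype.comp ψ : V →+ V), fun a ha =>
        AddMonoidHom.ext fun v => sub_eq_zero.2 ((ψ v).2 a ha)⟩
      left_inv := fun _ => rfl
      right_inv := fun _ => rfl }
  rw [Nat.card_congr (e.trans ((AddMonoidHom.toZModLinearMapEquiv p).toEquiv.trans
    ((Module.finBasis (ZMod p) V).constr ℕ).symm.toEquiv)), Nat.card_fun, Nat.card_fin]

theorem exists_off_normal (ho : Odd p) (hV : ∀ v : V, p • v = 0) (hH : Group.IsNilpotent H)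
    (hf : ∀ g : H, (∀ v : V, g • v = v) → g = 1) {A : Subgroup H} (h0 : A ≠ ⊥)
    (hc : ∀ a ∈ A, ∀ b ∈ A, a * b = b * a) (hpw : ∀ a ∈ A, a ^ p = 1)
    (hi : (fx V A).index ≤ Nat.card A) : ∃ B : Subgroup H, B ≠ ⊥ ∧
      (∀ a ∈ B, ∀ b ∈ B, a * b = b * a) ∧ (∀ a ∈ B, a ^ p = 1) ∧ Nat.card V ≤ mm V B ∧
      (∀ a ∈ B, ∀ v : V, a • v - v ∈ fx V B) ∧ normalClosure B ≤ normalizer (B : Set H) := by
  obtain ⟨A, hA⟩ := exists_Off hV h0 hc hpw hi
  haveI : Finite (AddMonoid.End V) := DFunLike.finite (V →+ V)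
  have hE : ∀ w : AddMonoid.End V, p • w = 0 := fun w => AddMonoidHom.ext fun v => hV _
  have hρ : Function.Injective (DistribMulAction.toAddMonoidEnd H V) :=
    (injective_iff_map_eq_one _).2 fun g hg => hf g fun v => DFunLike.congr_fun hg v
  obtain ⟨B, q, -, l, n⟩ := main ho hE _ H _ rfl hH hρ A fun a ha b hb =>
    AddMonoidHom.ext fun v => sub_eq_zero.2 (hA.quad b hb v a ha)
  have l2 := l.2 ⊤ inferInstance
  rw [inf_top_eq, inf_top_eq] at l2
  obtain ⟨d, hd, hd'⟩ := card_ann (H := H) hV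
  refine ⟨B, fun e => hA.ne_bot (card_le_one_iff_eq_bot _ |>.1 (by simpa [e] using l2)),
    fun a ha b hb => q.comm hρ ha hb, fun a ha => hρ (by
      rw [map_one, ← sub_eq_zero, q.pow ha, hE]), ?_,
    fun a ha v b hb => sub_eq_zero.1 (DFunLike.congr_fun (q b hb a ha) v), n⟩
  have := hA.best ⊥ bot_le
  rw [mm, fx_bot, card_bot, one_mul, AddSubgroup.card_top] at this
  refine this.trans (Nat.mul_le_mul l2 ?_)
  have l1 := l.1
  rw [hd', hd'] at l1
  refine (Nat.pow_le_pow_iff_left fun h => hA.ne_bot ?_).1 l1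
  haveI := hd h
  exact eq_bot_iff.2 fun g _ => hf g fun v => Subsingleton.elim _ _

end CfsgH3.Lim
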