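import Cfsg.Agent.H3.QDFus

/-! The largest normal subgroup of a constrained fusion system. -/

set_option autoImplicit false
set_option linter.unusedSectionVars false
set_option linter.style.haveILetI false

namespace CfsgH3

open Subgroup Cfsg
open CfsgH1 hiding IsSec card_quotient_lt isConjugacyFunctor_induced
open scoped commutatorElement MatrixGroups

universe u

variable {p : ℕ} [hp : Fact p.Prime] {G : Type*} [Group G]

theorem exists_automizer_of_isSec_QD [Finite G] (h : IsSec (QD p) G) :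
    ∃ Q : Subgroup G, IsPGroup p Q ∧ ∃ (H K : Subgroup G) (_ : (K.subgroupOf H).Normal),
      centralizer (Q : Set G) ≤ K ∧ K ≤ H ∧ H ≤ normalizer (Q : Set G) ∧
      Nonempty (H ⧸ K.subgroupOf H ≃* SL(2, ZMod p)) := by
  obtain ⟨P, L, f, h1, h2, h3, h4, h5⟩ := exists_local_of_isSec h
  set C := centralizer (P : Set G) with hC
  have hLC : L ≤ normalizer (C : Set G) := CfsgH2.le_normalizer_centralizer h3
  haveI : (C.subgroupOf (L ⊔ C)).Normal :=
    CfsgL0.normal_subgroupOf_of_le_normalizer (sup_le hLC le_normalizer)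
  let ρ : L →* SL(2, ZMod p) := SemidirectProduct.rightHom.comp f
  let σ : L →* ↥(L ⊔ C) ⧸ C.subgroupOf (L ⊔ C) :=
    (QuotientGroup.mk' _).comp (inclusion le_sup_left)
  have hσ : Function.Surjective σ := fun x => by
    obtain ⟨⟨x, hx⟩, rfl⟩ := QuotientGroup.mk'_surjective _ x
    obtain ⟨a, ha, c, hc, rfl⟩ := (mem_sup_of_le_normalizer hLC).mp hx
    exact ⟨⟨a, ha⟩, QuotientGroup.eq.mpr (by simpa [mem_subgroupOf] using hc)⟩
  have hk : σ.ker ≤ ρ.ker := fun x hx => by
    have hx' : (x : G) ∈ C :=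
      (QuotientGroup.eq_one_iff (N := C.subgroupOf (L ⊔ C)) (inclusion le_sup_left x)).mp hx
    refine slAct_injective (MulEquiv.ext fun v => ?_)
    obtain ⟨y, hy, e⟩ := h5.ge ⟨v, rfl⟩
    have e1 : x * y * x⁻¹ = y := Subtype.ext (conj_eq_of_mem_centralizer hx' hy)
    have e2 := congrArg f e1
    rw [map_mul, map_mul, map_inv, e, conj_inl, SemidirectProduct.inl_inj] at e2
    rw [map_one]
    exact e2
  let g : ↥(L ⊔ C) →* SL(2, ZMod p) := (σ.liftOfSurjective hσ ⟨ρ, hk⟩).comp (QuotientGroup.mk' _)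
  have hg : ∀ x : L, g (inclusion le_sup_left x) = ρ x := fun x =>
    MonoidHom.liftOfRightInverse_comp_apply σ _ (Function.rightInverse_surjInv hσ) ⟨ρ, hk⟩ x
  have hgs : Function.Surjective g := fun y => by
    obtain ⟨x, rfl⟩ := (SemidirectProduct.rightHom_surjective.comp h4) y
    exact ⟨_, hg x⟩
  have e : (g.ker.map (L ⊔ C).subtype).subgroupOf (L ⊔ C) = g.ker :=
    comap_map_eq_self_of_injective (L ⊔ C).subtype_injective _
  haveI hN : ((g.ker.map (L ⊔ C).subtype).subgroupOf (L ⊔ C)).Normal := by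
    rw [e]; infer_instance
  refine ⟨P, h1, L ⊔ C, g.ker.map (L ⊔ C).subtype, hN, fun c hc => ?_,
    map_subtype_le _, sup_le h3 (centralizer_le_normalizer _),
    ⟨(QuotientGroup.quotientMulEquivOfEq e).trans (QuotientGroup.quotientKerEquivOfSurjective g hgs)⟩⟩
  refine ⟨⟨c, mem_sup_right hc⟩, ?_, rfl⟩
  change (σ.liftOfSurjective hσ ⟨ρ, hk⟩) (QuotientGroup.mk _) = 1
  rw [(QuotientGroup.eq_one_iff _).mpr (show (⟨c, mem_sup_right hc⟩ : ↥(L ⊔ C)) ∈
    C.subgroupOf (L ⊔ C) from hc), map_one]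

theorem le_of_centric_radical [Finite G] {S Q R : Subgroup G} (hS : IsPGroup p S) (hQ : Q ≤ S)
    (hSQ : S ≤ normalizer (Q : Set G)) (hF : SFBy (normalizer (Q : Set G)) ⊤ S) (hR : R ≤ S)
    (hc : IsSylowIn p (R ⊓ centralizer (R : Set G)) (centralizer (R : Set G)))
    (hr : ∀ X : Subgroup G, X ≤ normalizer (R : Set G) →
      (∀ n ∈ normalizer (R : Set G), cj n X = X) → R ⊔ centralizer (R : Set G) ≤ X →
      (∃ k : ℕ, (R ⊔ centralizer (R : Set G)).relIndex X = p ^ k) →
      X = R ⊔ centralizer (R : Set G)) : Q ≤ R := by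
  have hn : normalizer (R : Set G) ≤
      normalizer ((R ⊔ centralizer (R : Set G) : Subgroup G) : Set G) :=
    CfsgH2.le_normalizer_sup le_rfl (CfsgH2.le_normalizer_centralizer le_rfl)
  have := hr ((Q ⊓ normalizer (R : Set G)) ⊔ (R ⊔ centralizer (R : Set G)))
    (sup_le inf_le_right (sup_le le_normalizer (centralizer_le_normalizer _))) (fun n hn' => by
      obtain ⟨m, hm, c, hc, rfl⟩ := actsVia_iff.mp (hF R n hR (mem_top n)
        ((cj_eq_of_mem_normalizer hn').le.trans hR))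
      have hm' : m ∈ normalizer (R : Set G) := by
        simpa using mul_mem hn' (inv_mem (centralizer_le_normalizer _ hc))
      rw [← cj_cj, cj_eq_of_mem (mem_sup_right (mem_sup_right hc)), cj_sup, cj_inf,
        cj_eq_of_mem_normalizer hm, cj_eq_of_mem hm', cj_eq_of_mem_normalizer (hn hm')])
    le_sup_right (by
      rw [relIndex_sup_of_le_normalizer (inf_le_right.trans hn)]
      obtain ⟨k, hk⟩ := (hS.to_le (inf_le_left.trans hQ :
        Q ⊓ normalizer (R : Set G) ≤ S)).exists_card_eq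
      obtain ⟨j, -, hj⟩ := (Nat.dvd_prime_pow hp.out).mp (hk ▸ relIndex_dvd_card _ _)
      exact ⟨j, hj⟩)
  refine le_of_inf_normalizer_le' (hS.to_le hR) (hS.to_le hQ) (hR.trans hSQ) fun a ha => ?_
  obtain ⟨r, hr', c, hc', rfl⟩ := (mem_sup_of_le_normalizer
    (CfsgH2.le_normalizer_centralizer le_normalizer)).mp (this.le (mem_sup_left ha))
  refine R.mul_mem hr' ((hc.le_of_ge (hS.to_le (inf_le_left : S ⊓ centralizer (R : Set G) ≤ S))
    (inf_le_inf_right _ hR) inf_le_right) ⟨?_, hc'⟩).1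
  simpa using S.mul_mem (S.inv_mem (hR hr')) (hQ ha.1)

theorem sfBy_inf_of_radical [Finite G] {S Q X : Subgroup G} (hS : IsSylowIn p S ⊤)
    (hSQ : S ≤ normalizer (Q : Set G)) (hF : SFBy (normalizer (Q : Set G)) ⊤ S)
    (hc : IsSylowIn p (Q ⊓ centralizer (Q : Set G)) (centralizer (Q : Set G))) (hQ : Q ≤ S)
    (h1 : X ≤ normalizer (Q : Set G)) (h2 : normalizer (Q : Set G) ≤ normalizer (X : Set G))
    (h3 : Q ⊔ centralizer (Q : Set G) ≤ X)
    (h4 : ∃ k : ℕ, (Q ⊔ centralizer (Q : Set G)).relIndex X = p ^ k) :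
    SFBy (normalizer ((S ⊓ X : Subgroup G) : Set G)) ⊤ S ∧
      X = (S ⊓ X) ⊔ centralizer (Q : Set G) := by
  set D := resIn p (centralizer (Q : Set G)) with hD
  have hDp : ¬ p ∣ Nat.card D := hc.pNil_of_central (centralizer_anti inf_le_left)
  have hDn : normalizer (Q : Set G) ≤ normalizer (D : Set G) :=
    (CfsgH2.le_normalizer_centralizer le_rfl).trans (normalizer_le_normalizer_resIn _)
  have hT := (hS.of_le hSQ le_top).inf_of_le_normalizer h1 h2
  have hX : (S ⊓ X) ⊔ D = X := by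
    have hn : X ≤ normalizer ((Q ⊔ centralizer (Q : Set G) : Subgroup G) : Set G) :=
      CfsgH2.le_normalizer_sup h1 (CfsgH2.le_normalizer_centralizer h1)
    obtain ⟨k, hk⟩ := h4
    haveI := CfsgL0.normal_subgroupOf_of_le_normalizer hn
    have e := hT.sup_eq_of_pow_mem h3 hn fun x hx => ⟨k, by
      have := ((Q ⊔ centralizer (Q : Set G)).subgroupOf X).pow_index_mem ⟨x, hx⟩
      rw [← hk]; exact this⟩
    refine le_antisymm (sup_le inf_le_right ((resIn_le _).trans (le_sup_right.trans h3)))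
      (e.ge.trans (sup_le le_sup_left (sup_le (le_sup_of_le_left (le_inf hQ
        (le_sup_left.trans h3))) (hc.sup_resIn.ge.trans (sup_le_sup_right ?_ _)))))
    exact inf_le_left.trans (le_inf hQ (le_sup_left.trans h3))
  refine ⟨fun A g hA _ hAg => ?_, le_antisymm (hX.ge.trans (sup_le_sup_left (resIn_le _) _))
    (sup_le inf_le_right (le_sup_right.trans h3))⟩
  obtain ⟨m, hm, e⟩ := hF A g hA (mem_top g) hAg
  have hSn : S ≤ normalizer ((S ⊓ X : Subgroup G) : Set G) :=
    CfsgH2.le_normalizer_inf le_normalizer (hSQ.trans h2)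
  obtain ⟨x, hx, e1⟩ := hT.exists_cj_eq (hT.cj_of_mem_normalizer (h2 (inv_mem hm)))
  rw [← hX, sup_comm] at hx
  obtain ⟨d, hd, q, hq, rfl⟩ := (mem_sup_of_le_normalizer' (inf_le_left.trans (hSQ.trans hDn))).mp hx
  rw [← cj_cj, cj_eq_of_mem hq] at e1
  obtain ⟨c, hc', e2⟩ := CfsgH2.exists_centralizer_cj_eq (A := A) (H := D)
    (hA.trans (hSQ.trans hDn)) (CfsgH2.coprime_card_of_isPGroup (hS.pgroup.to_le hA) hDp)
    (Or.inl (CfsgH2.isSolvable_of_isPGroup (hS.pgroup.to_le hA))) (S ⊓ X) hd (hA.trans hSn) (by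
      change A ≤ normalizer ((cj d (S ⊓ X) : Subgroup G) : Set G)
      rw [e1, ← cj_normalizer, ← cj_le_iff_le_cj_inv, cj_eq_of_conj_eq e]
      exact hAg.trans hSn)
  refine ⟨m * c, ?_, fun a ha => ?_⟩
  · rw [mem_normalizer_iff_cj, ← cj_cj, show cj c (S ⊓ X) = _ from e2.trans e1, cj_cj_inv]
  · rw [← e a ha]
    nth_rw 2 [← conj_eq_of_mem_centralizer hc'.2 ha]
    group

end CfsgH3
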