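import Cfsg.Agent.H3.PB2

/-! Pushing up over a dihedral group: the Sylow `2`-subgroup. -/

set_option autoImplicit false
set_option linter.unusedSectionVars false
set_option linter.style.haveILetI false
set_option maxHeartbeats 400000

namespace CfsgH3.PB

open Subgroup Cfsg
open CfsgH1 hiding IsSec card_quotient_lt isConjugacyFunctor_induced
open scoped commutatorElement IsMulCommutative

section T
variable {T : Type*} [Group T] [Finite T] (σ : T →* T) (hs : Function.Bijective σ)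
  (hσ : ∀ W : Subgroup T, W.Normal → (W.map σ).map σ = W) {Q U C : Subgroup T}
include hs hσ

theorem map_inf_map {W : Subgroup T} (hW : W.Normal) : (W ⊓ W.map σ).map σ = W ⊓ W.map σ := by
  rw [map_inf _ _ _ hs.1, hσ W hW, inf_comm]

theorem lemT0 (hQ : Q.index = 2) (h0 : Q ≠ ⊥)
    (hW : ∀ W : Subgroup T, W.Normal → W.map σ = W → W ≤ Q → W = ⊥) : IsKleinFour T := by
  haveI := normal_of_index_eq_two hQ
  haveI := Normal.map ‹Q.Normal› σ hs.2
  have hQ2 : (Q.map σ).index = 2 := by rw [index_map_of_bijective hs, hQ]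
  have hR := hW _ inferInstance (map_inf_map σ hs hσ ‹Q.Normal›) inf_le_left
  have h1 : Nat.card Q ≤ 2 := by
    rw [← relIndex_bot_left, ← hR, inf_comm, inf_relIndex_right, ← hQ2, ← relIndex_top_right]
    exact relIndex_le_of_le_right le_top FiniteIndex.index_ne_zero
  have h2 := (one_lt_card_iff_ne_bot Q).2 h0
  have h3 := Q.card_mul_index
  rw [hQ, show Nat.card Q = 2 by omega] at h3
  haveI : Nontrivial T := Finite.one_lt_card_iff_nontrivial.1 (by omega)
  exact ⟨h3.symm, (Monoid.exponent_eq_prime_iff Nat.prime_two).2 fun g hg => orderOf_eq_prime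
    (mem_bot.1 (hR ▸ ⟨sq_mem_of_index_two hQ g, sq_mem_of_index_two hQ2 g⟩)) hg⟩

theorem lemT [U.Normal] [C.Normal] (hQ : Q.index = 2) (hUC : U ⊔ C = Q) (hi : U ⊓ C = ⊥)
    (hUZ : U ≤ centralizer (Q : Set T)) (hU2 : ∀ u ∈ U, u ^ 2 = 1) (hU4 : Nat.card U = 4)
    (hZ : ¬ U ≤ center T)
    (hW : ∀ W : Subgroup T, W.Normal → W.map σ = W → (W ≤ C ∨ (U ≤ W ∧ W ≤ Q)) → W = ⊥) :
    Nat.card C ≤ 2 ∧ ∃ t ∉ Q, t ^ 2 = 1 := by
  haveI := normal_of_index_eq_two hQ
  haveI := Normal.map ‹Q.Normal› σ hs.2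
  haveI := Normal.map ‹U.Normal› σ hs.2
  haveI := Normal.map ‹C.Normal› σ hs.2
  have hQ2 : (Q.map σ).index = 2 := by rw [index_map_of_bijective hs, hQ]
  have hU0 : U ≠ ⊥ := fun e => hZ (e ▸ bot_le)
  have hUQ : U ≤ Q := hUC ▸ le_sup_left
  have hCQ : C ≤ Q := hUC ▸ le_sup_right
  have dec : ∀ q ∈ Q, ∃ u ∈ U, ∃ c ∈ C, u * c = q := fun q hq =>
    (mem_sup_of_le_normalizer (le_normalizer_of_normal _)).1 (hUC ▸ hq)
  have hR := map_inf_map σ hs hσ ‹Q.Normal›
  have hC := hW _ inferInstance (map_inf_map σ hs hσ ‹C.Normal›) (Or.inl inf_le_left)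
  have sq1 : ∀ q ∈ Q, q ^ 2 ∈ C := fun q hq => by
    obtain ⟨u, hu, c, hc, rfl⟩ := dec q hq
    rw [Commute.mul_pow (hUZ hu c (hCQ hc)).symm, hU2 u hu, one_mul]
    exact pow_mem hc 2
  have sq2 : ∀ q ∈ Q, q ∈ Q.map σ → q ^ 2 = 1 := by
    rintro _ hq ⟨q, hq', rfl⟩
    exact mem_bot.1 (hC ▸ ⟨sq1 _ hq, q ^ 2, sq1 _ hq', map_pow _ _ _⟩)
  obtain ⟨u0, hu0, hu1⟩ : ∃ u ∈ U, u ∉ Q.map σ := by
    by_contra hc
    push Not at hc
    refine hU0 (le_bot_iff.1 (le_sup_left.trans (hW (U ⊔ U.map σ) inferInstance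
      (by rw [Subgroup.map_sup, hσ U ‹_›, sup_comm]) (Or.inr ⟨le_sup_left, sup_le hUQ ?_⟩)).le))
    exact (map_mono (le_inf hUQ hc)).trans (hR.le.trans inf_le_left)
  have sq3 : ∀ q ∈ Q, q ^ 2 = 1 := fun q hq => by
    by_cases h : q ∈ Q.map σ
    · exact sq2 q hq h
    · have := sq2 _ (mul_mem hq (hUQ hu0)) ((mul_mem_iff_of_index_two hQ2).2 (by simp [h, hu1]))
      rwa [Commute.mul_pow (hUZ hu0 q hq), hU2 u0 hu0, mul_one] at this
  have cm : ∀ a ∈ Q, ∀ b ∈ Q, a * b = b * a := fun a ha b hb => by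
    have i : ∀ q ∈ Q, q⁻¹ = q := fun q hq => inv_eq_of_mul_eq_one_right (by rw [← sq, sq3 q hq])
    rw [← i _ (mul_mem ha hb), mul_inv_rev, i a ha, i b hb]
  obtain ⟨_, ⟨t, ht, rfl⟩, htQ⟩ : ∃ t ∈ Q.map σ, t ∉ Q := by
    by_contra hc
    push Not at hc
    exact hu1 ((eq_of_le_of_card_ge hc (card_map_of_injective hs.1).ge).ge (hUQ hu0))
  refine ⟨?_, _, htQ, by rw [← map_pow, sq3 t ht, map_one]⟩
  have cen : ∀ x ∈ Q, σ t * x = x * σ t → x ∈ center T := fun x hx h => mem_center_iff.2 fun g =>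
    mem_centralizer_singleton_iff.1 (le_of_two (B := ⊤) (by rwa [relIndex_top_right]) (mem_top _)
      htQ (fun a ha => mem_centralizer_singleton_iff.2 (cm a ha x hx))
      (mem_centralizer_singleton_iff.2 h) (mem_top g))
  have k1 : Q ⊓ Q.map σ ≤ (U ⊓ center T) ⊔ C := by
    rintro _ ⟨hq, q, hq', rfl⟩
    obtain ⟨u, hu, c, hc, e⟩ := dec _ hq
    have e1 : σ t * (u * c) = u * c * σ t := by rw [e, ← map_mul, ← map_mul, cm t ht q hq']
    have e2 : u⁻¹ * (σ t * u * (σ t)⁻¹) = c * (σ t * c⁻¹ * (σ t)⁻¹) := by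
      calc u⁻¹ * (σ t * u * (σ t)⁻¹) = u⁻¹ * (σ t * (u * c)) * c⁻¹ * (σ t)⁻¹ := by group
        _ = _ := by rw [e1]; group
    have e3 : u⁻¹ * (σ t * u * (σ t)⁻¹) ∈ U ⊓ C := mem_inf.2 ⟨mul_mem (inv_mem hu)
      (Normal.conj_mem ‹_› u hu _), e2 ▸ mul_mem hc (Normal.conj_mem ‹_› _ (inv_mem hc) _)⟩
    rw [hi, mem_bot, inv_mul_eq_one, eq_mul_inv_iff_mul_eq] at e3
    exact e ▸ mul_mem (mem_sup_left ⟨hu, cen u (hUQ hu) e3.symm⟩) (mem_sup_right hc)
  have k2 : C.relIndex (Q ⊓ Q.map σ) ≤ 2 := by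
    refine (relIndex_le_of_le_right k1 FiniteIndex.index_ne_zero).trans ?_
    rw [relIndex_sup_right]
    refine (Nat.le_of_dvd Nat.card_pos (index_dvd_card _)).trans ?_
    have a1 := card_lt_of_lt (lt_of_le_of_ne (inf_le_left : U ⊓ center T ≤ U)
      fun e => hZ (e.ge.trans inf_le_right))
    have a2 := card_dvd_of_le (inf_le_left : U ⊓ center T ≤ U)
    rw [hU4] at a1 a2
    generalize Nat.card (U ⊓ center T : Subgroup T) = m at a1 a2
    interval_cases m <;> simp_all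
  have k3 : (C.map σ).relIndex (Q ⊓ Q.map σ) ≤ 2 := by
    rwa [← hR, relIndex_map_map_of_injective _ _ hs.1]
  have k4 : Nat.card (Q ⊓ Q.map σ : Subgroup T) ≤ 4 := by
    rw [← relIndex_bot_left, ← hC]
    exact relIndex_inf_le.trans (Nat.mul_le_mul k2 k3)
  have k5 := card_mul_relIndex (inf_le_left : Q ⊓ Q.map σ ≤ Q)
  have k6 : (Q ⊓ Q.map σ).relIndex Q ≤ 2 := by
    rw [inf_comm, inf_relIndex_right, ← hQ2, ← relIndex_top_right]
    exact relIndex_le_of_le_right le_top FiniteIndex.index_ne_zero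
  have k7 := CfsgH2.card_sup_mul_card_inf (H := U) (K := C) (le_normalizer_of_normal _)
  rw [hUC, hi, hU4, card_bot] at k7
  have := Nat.mul_le_mul k4 k6
  omega

end T

variable {X : Type*} [Group X] [Finite X] {Q P U C : Subgroup X} {d : X}

/-- The structure of `O₂(X)` after pushing up. -/
structure Str (Q U C : Subgroup X) (d : X) : Prop where
  nU : U.Normal
  nC : C.Normal
  sup : U ⊔ C = Q
  inf : U ⊓ centralizer (zpowers d : Set X) = ⊥
  Cd : C ≤ centralizer (zpowers d : Set X)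
  UZ : U ≤ centralizer (Q : Set X)
  pow : ∀ u ∈ U, u ^ 2 = 1
  card : Nat.card U = 4
  gen : ∀ x, (orderOf x).Coprime 2 → x ∈ U ⊔ zpowers d
  res : pResidual 2 X = U ⊔ zpowers d
  nrm : ∀ W : Subgroup X, W ≤ Q → (W ≤ C ∨ U ≤ W) → pResidual 2 X ≤ normalizer (W : Set X)

theorem Dih.str (h : Dih Q d) (hd : d ∉ centralizer (Q : Set X)) (hN : NoChar X) :
    Str Q ⁅Q, zpowers d⁆ (Q ⊓ centralizer (zpowers d : Set X)) d := by
  haveI := h.normal
  have hV := h.push hd hN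
  have hZ := hV.trans (h.cV_le hd)
  have cp : ∀ A : Subgroup X, A ≤ Q → (Nat.card (zpowers d)).Coprime (Nat.card A) :=
    fun A hA => coprime_card_zpowers h.odd (h.pg.to_le hA)
  have sv : ∀ A : Subgroup X, A ≤ Q → Group.IsSolvable (zpowers d) ∨ Group.IsSolvable A :=
    fun A hA => Or.inr (CfsgH2.isSolvable_of_isPGroup (h.pg.to_le hA))
  have c1 : ⁅Q, ⁅Q, zpowers d⁆ ⊔ zpowers d⁆ ≤ ⁅Q, zpowers d⁆ :=
    commutator_sup_right_le le_normalizer (normalizer_commutator_ge_right _ _)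
      ((commutator_eq_bot_of_le_centralizer' (hZ.trans inf_le_right)).le.trans bot_le) le_rfl
  have gen : ∀ x, (orderOf x).Coprime 2 → x ∈ ⁅Q, zpowers d⁆ ⊔ zpowers d := fun x hx =>
    FQ.mem_of_mem_sup h.pg (le_normalizer_iff_commutator_le_right.2 (c1.trans le_sup_left)) hx
      ((sup_le le_sup_right (le_sup_right.trans le_sup_left) : Q ⊔ zpowers d ≤ _) (h.gen x hx))
  have hdK : zpowers d ≤ pResidual 2 X := zpowers_le.2 (subset_closure h.odd)
  have res : pResidual 2 X = ⁅Q, zpowers d⁆ ⊔ zpowers d := le_antisymm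
    ((closure_le _).2 gen) (sup_le ((commutator_mono le_rfl hdK).trans (commutator_le_right _ _)) hdK)
  have e1 : ⁅Q, zpowers d⁆ = ⁅Q, pResidual 2 X⁆ := le_antisymm (commutator_mono le_rfl hdK)
    (by rw [res]; exact c1)
  have e2 : Q ⊓ centralizer (zpowers d : Set X) = Q ⊓ centralizer (pResidual 2 X : Set X) :=
    le_antisymm (le_inf inf_le_left (by
      rw [res, CfsgL0.centralizer_sup]
      exact inf_le_inf_right _ (le_centralizer_comm.1 (hZ.trans inf_le_right))))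
      (inf_le_inf_left _ (centralizer_anti hdK))
  have hVQ := (h.cV_le hd).trans inf_le_left
  have e3 : ⁅Q, zpowers d⁆ ⊓ centralizer (zpowers d : Set X) = ⊥ := by
    rw [eq_bot_iff, ← CfsgH2.commutator_inf_centralizer_eq_bot (le_normalizer_of_normal _)
      (cp _ hVQ) (h.cV_comm hd), ← CfsgH2.commutator_commutator_eq (le_normalizer_of_normal _)
      (cp _ le_rfl) (sv _ le_rfl)]
    exact inf_le_inf_right _ (commutator_mono hV le_rfl)
  refine ⟨e1 ▸ inferInstance, e2 ▸ inferInstance, CfsgH2.commutator_sup_centralizer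
    (le_normalizer_of_normal _) (cp _ le_rfl) (sv _ le_rfl), e3, inf_le_right,
    hZ.trans inf_le_right, fun u hu => h.cV_pow hd (hV hu), ?_, gen, res, fun W hW h1 => ?_⟩
  · obtain ⟨P, hP⟩ := exists_isSylowIn 2 (⊤ : Subgroup X)
    obtain ⟨g, hg⟩ := h.two P hP
    obtain ⟨x, hx, hxQ⟩ := SetLike.not_le_iff_exists.1 (h.not_le hP)
    have a1 : Nat.card (⁅Q, zpowers d⁆ : Subgroup X) ≤ 4 := by
      rw [← relIndex_bot_left, ← e3, inf_comm, inf_relIndex_right]
      refine (relIndex_le_of_le_right hV FiniteIndex.index_ne_zero).trans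
        ((relIndex_le_of_le_left (H := centralizer (cj g P : Set X) ⊓ centralizer (P : Set X))
          (fun v hv => centralizer_anti le_top fun a ha => mem_centralizer_singleton_iff.1
            (hg x hx hxQ (centralizer {v}) (fun b hb => mem_centralizer_singleton_iff.2 (hv.1 b hb))
              (mem_centralizer_singleton_iff.2 (hv.2 x hx)) ha)) FiniteIndex.index_ne_zero).trans
          (relIndex_inf_le.trans ?_))
      rw [h.idxV hd hN hP, h.idxV hd hN (hP.cj_of_mem (mem_top g))]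
    have a2 : ⁅Q, zpowers d⁆ ≠ ⊥ := fun e => hd (le_centralizer_comm.1
      (commutator_eq_bot_iff_le_centralizer.1 e) (mem_zpowers d))
    obtain ⟨m, hm⟩ := (h.pg.to_le (hZ.trans inf_le_left)).exists_card_eq
    have a3 : Nat.card (⁅Q, zpowers d⁆ : Subgroup X) ≠ 2 := fun e => by
      obtain ⟨u, hu, hu1⟩ := (Subgroup.bot_or_exists_ne_one _).resolve_left a2
      obtain ⟨y, -, hy⟩ := (Nat.card_eq_two_iff' (1 : (⁅Q, zpowers d⁆ : Subgroup X))).1 e
      refine hu1 (mem_bot.1 (e3 ▸ ⟨hu, fun a ha => mul_inv_eq_iff_eq_mul.1 ?_⟩))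
      exact congrArg Subtype.val ((hy ⟨_, conj_mem_of_mem_normalizer
        (normalizer_commutator_ge_right _ _ ha) hu⟩ (by simpa using hu1)).trans
        (hy ⟨u, hu⟩ (by simpa using hu1)).symm)
    have a4 := (one_lt_card_iff_ne_bot _).2 a2
    rw [hm] at a1 a3 a4 ⊢
    rcases m with _ | _ | _ | m
    · simp at a4
    · simp at a3
    · rfl
    · have := Nat.one_le_two_pow (n := m); rw [pow_succ, pow_succ, pow_succ] at a1; omega
  · rcases h1 with h1 | h1
    · exact (le_centralizer_comm.1 (h1.trans (e2.le.trans inf_le_right))).trans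
        (centralizer_le_normalizer _)
    · exact le_normalizer_of_commutator_le ((commutator_mono hW le_rfl).trans (e1.ge.trans h1))

end CfsgH3.PB
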