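import Cfsg.Agent.H3.PB3

/-! Pushing up over a dihedral group: identification of the quotient by the odd core. -/

set_option autoImplicit false
set_option linter.unusedSectionVars false
set_option linter.style.haveILetI false
set_option maxHeartbeats 400000

namespace CfsgH3.PB

open Subgroup Cfsg
open CfsgH1 hiding IsSec card_quotient_lt isConjugacyFunctor_induced
open scoped commutatorElement IsMulCommutative

variable {X : Type*} [Group X] [Finite X] {Q P U C : Subgroup X} {d : X}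

theorem odd_of_mem_core {x : X} (hx : x ∈ pPrimeCore 2 X) : (orderOf x).Coprime 2 :=
  coprime_orderOf_of_mem (CfsgL0.not_dvd_card_pPrimeCore X 2) hx

theorem Dih.odd_of_mem (h : Dih Q d) {x : X} (hx : x ∈ zpowers d) : (orderOf x).Coprime 2 :=
  h.odd.coprime_dvd_left (orderOf_dvd_of_mem_zpowers hx)

theorem le_core {O : Subgroup X} [O.Normal] (h : ∀ x ∈ O, (orderOf x).Coprime 2) :
    O ≤ pPrimeCore 2 X := by
  rw [← CfsgL0.pPrimeCoreOf_top]
  exact CfsgL0.le_pPrimeCoreOf le_top (le_normalizer_of_normal _)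
    ((Nat.Prime.coprime_iff_not_dvd Nat.prime_two).2 (not_dvd_card_of_forall_coprime h)).symm

theorem Dih.equiv_of_cent (h : Dih Q d) (hd : d ∈ centralizer (Q : Set X))
    (hP : IsSylowIn 2 P ⊤) : Nonempty (P ≃* X ⧸ pPrimeCore 2 X) := by
  have gen : ∀ x, (orderOf x).Coprime 2 → x ∈ zpowers d := fun x hx =>
    FQ.mem_of_mem_sup h.pg ((le_centralizer_comm.1 (zpowers_le.2 hd)).trans
      (centralizer_le_normalizer _)) hx (sup_comm Q _ ▸ h.gen x hx)
  haveI : (zpowers d).Normal := ⟨fun x hx g => gen _ (by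
    rw [← MulAut.conj_apply, MulEquiv.orderOf_eq]; exact h.odd_of_mem hx)⟩
  have h1 : pPrimeCore 2 X ⊔ P = ⊤ := top_le_iff.1 ((CfsgL0.pResidual_sup_sylow hP.sylow).ge.trans
    (sup_le_sup_right (((closure_le _).2 gen).trans (le_core fun x hx => h.odd_of_mem hx)) _))
  refine ⟨MulEquiv.ofBijective ((QuotientGroup.mk' _).comp P.subtype) ⟨(injective_iff_map_eq_one _).2
    fun x hx => Subtype.ext (eq_one_of_mem_pgroup_of_coprime hP.pgroup x.2
      (odd_of_mem_core ((QuotientGroup.eq_one_iff _).1 hx))), fun x => ?_⟩⟩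
  obtain ⟨x, rfl⟩ := QuotientGroup.mk_surjective x
  obtain ⟨k, hk, a, ha, rfl⟩ := (mem_sup_of_le_normalizer' (le_normalizer_of_normal P)).1
    (h1 ▸ mem_top x)
  exact ⟨⟨a, ha⟩, by simp [(QuotientGroup.eq_one_iff k).2 hk]⟩

theorem Str.exists_hom (h : Dih Q d) (s : Str Q U C d) :
    ∃ φ : X →* Equiv.Perm (Fin 4), Function.Surjective φ ∧ φ.ker = pPrimeCore 2 X ⊔ C := by
  haveI := s.nU
  haveI := s.nC
  haveI := h.normal
  have hUQ : U ≤ Q := s.sup ▸ le_sup_left
  have hCQ : C ≤ Q := s.sup ▸ le_sup_right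
  have hU : IsPGroup 2 U := h.pg.to_le hUQ
  have hUD : U ⊓ zpowers d = ⊥ := eq_bot_iff.2 fun x hx =>
    eq_one_of_mem_pgroup_of_coprime hU hx.1 (h.odd_of_mem hx.2)
  have hdU : d ∉ centralizer (U : Set X) := fun hc => by
    have := s.card
    rw [← inf_eq_left.2 (le_centralizer_comm.1 (zpowers_le.2 hc)), s.inf] at this
    simp at this
  set N := normalizer (zpowers d : Set X) with hN
  have b1 : U ⊔ N = ⊤ := eq_top_iff.2 fun x _ => by
    have k : ∀ y ∈ cj x (zpowers d), (orderOf y).Coprime 2 := by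
      rintro _ ⟨y, hy, rfl⟩
      rw [MulEquiv.coe_toMonoidHom, MulEquiv.orderOf_eq]; exact h.odd_of_mem hy
    obtain ⟨n, hn, e⟩ := CfsgH2.exists_conj_le_of_le_sup (A := zpowers d) (N := U)
      (K := cj x (zpowers d)) (le_normalizer_of_normal _) (disjoint_iff.2 (inf_comm _ U ▸ hUD))
      (fun y hy => s.gen y (k y hy)) (by rw [card_cj]; exact coprime_card_zpowers h.odd hU)
      (Or.inr (CfsgH2.isSolvable_of_isPGroup hU))
    have : n * x ∈ N := mem_normalizer_of_cj_le (by rw [← cj_cj]; exact cj_le_iff.2 e)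
    simpa using mul_mem (mem_sup_left (inv_mem hn)) (mem_sup_right this)
  have b2 : U ⊓ N = ⊥ := by
    rw [eq_bot_iff, ← s.inf]
    refine le_inf inf_le_left (commutator_eq_bot_iff_le_centralizer.1 (eq_bot_iff.2 ?_))
    rw [← hUD]
    exact le_inf ((commutator_mono inf_le_left le_rfl).trans (commutator_le_left _ _))
      (commutator_le_right_of_le_normalizer inf_le_right)
  have b3 : N.index = 4 := by
    have k1 := CfsgH2.card_sup_mul_card_inf (H := N) (K := U) (le_normalizer_of_normal _)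
    rw [sup_comm, inf_comm, b1, b2, card_top, card_bot, s.card, ← N.card_mul_index, mul_one] at k1
    exact Nat.eq_of_mul_eq_mul_left Nat.card_pos k1
  have oD : ∀ x ∈ centralizer (U : Set X), (orderOf x).Coprime 2 →
      x ∈ zpowers d ⊓ centralizer (U : Set X) := fun x hx hc => by
    obtain ⟨u, hu, e, he, rfl⟩ := (mem_sup_of_le_normalizer' (le_normalizer_of_normal _)).1
      (s.gen x hc)
    have hu' : u ∈ centralizer (U : Set X) := centralizer_anti hUQ (s.UZ hu)
    refine FQ.mem_of_mem_sup hU ((le_centralizer_comm.1 inf_le_right).trans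
      (centralizer_le_normalizer _)) hc (mul_mem (mem_sup_right hu) (mem_sup_left ⟨he, ?_⟩))
    simpa using mul_mem (inv_mem hu') hx
  haveI : (zpowers d ⊓ centralizer (U : Set X)).Normal := ⟨fun x hx g => oD _
    (Normal.conj_mem inferInstance x hx.2 g) (by
      rw [← MulAut.conj_apply, MulEquiv.orderOf_eq]; exact h.odd_of_mem hx.1)⟩
  have hCN : C ≤ N := s.Cd.trans (centralizer_le_normalizer _)
  have hMU : N.normalCore ≤ centralizer (U : Set X) := fun m hm u hu =>
    commute_of_normal_of_disjoint U N.normalCore inferInstance inferInstance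
      (disjoint_iff.2 (eq_bot_iff.2 (b2 ▸ inf_le_inf_left _ (normalCore_le _)))) u m hu hm
  have two : ∀ a ∈ N.normalCore, ∀ k, a ^ 2 ^ k = 1 → a ∈ C := fun a ha k hk => by
    obtain ⟨P, hP, haP⟩ := exists_isSylowIn_ge (isPGroup_zpowers hk) le_top
    have haQ : a ∈ Q := by_contra fun hc =>
      hdU (h.mem_of_normal hP (haP (mem_zpowers a)) hc (hMU ha))
    obtain ⟨u, hu, c, hc, rfl⟩ := (mem_sup_of_le_normalizer (le_normalizer_of_normal _)).1
      (s.sup ▸ haQ)
    have : u ∈ U ⊓ N := ⟨hu, by simpa using mul_mem (normalCore_le _ ha) (inv_mem (hCN hc))⟩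
    rw [b2, mem_bot] at this
    rwa [this, one_mul]
  have b5 : N.normalCore = pPrimeCore 2 X ⊔ C := by
    refine le_antisymm (fun m hm => ?_) (sup_le (normal_le_normalCore.2 fun x hx =>
      le_normalizer (oD x (le_centralizer_comm.1 (FQ.le_centralizer_of_coprime hU
        ((Nat.Prime.coprime_iff_not_dvd Nat.prime_two).2 (CfsgL0.not_dvd_card_pPrimeCore X 2)).symm
        (le_normalizer_of_normal _) (le_normalizer_of_normal _)) hx) (odd_of_mem_core hx)).1)
      (normal_le_normalCore.2 hCN))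
    obtain ⟨a, b, ha, hb, ⟨k, hk⟩, hb', rfl⟩ := exists_pPart (p := 2) m
    exact mul_mem (mem_sup_right (two a (zpowers_le.2 hm ha) k hk)) (mem_sup_left
      (le_core (O := zpowers d ⊓ centralizer (U : Set X)) (fun x hx => h.odd_of_mem hx.1) (oD b (hMU (zpowers_le.2 hm hb)) hb')))
  let e : X ⧸ N ≃ Fin 4 := Finite.equivFinOfCardEq b3
  let φ := e.permCongrHom.toMonoidHom.comp (MulAction.toPermHom X (X ⧸ N))
  have hk : φ.ker = N.normalCore := by
    rw [normalCore_eq_ker]
    exact MonoidHom.ker_mulEquiv_comp _ e.permCongrHom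
  refine ⟨φ, ?_, hk.trans b5⟩
  obtain ⟨P, hP⟩ := exists_isSylowIn 2 (⊤ : Subgroup X)
  have k1 : φ.ker.relIndex P = 8 := by
    have e1 : φ.ker ⊓ P = C := le_antisymm (fun a ha =>
      let ⟨k, hk'⟩ := isPGroup_iff_forall.1 hP.pgroup a ha.2; two a (hk ▸ ha.1) k hk')
      (le_inf (hk ▸ normal_le_normalCore.2 hCN) (hCQ.trans (h.le hP)))
    rw [← inf_relIndex_right, e1, ← relIndex_mul_relIndex C Q P hCQ (h.le hP), h.idx P hP,
      ← s.sup, relIndex_sup_right, ← inf_relIndex_right, eq_bot_iff.2 (s.inf ▸ le_inf inf_le_right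
        (inf_le_left.trans s.Cd) : C ⊓ U ≤ ⊥), relIndex_bot_left, s.card]
  have k2 := relIndex_dvd_index_of_normal φ.ker P
  rw [k1, index_ker] at k2
  have k3 := card_subgroup_dvd_card φ.range
  have k4 : Nat.card (Equiv.Perm (Fin 4)) = 24 := by simp [Nat.card_perm]; rfl
  have k5 : Nat.card φ.range ≠ 8 := fun e8 => hdU (hMU (hk ▸ eq_one_of_pow_of_coprime (p := 2)
    (k := 3) (congrArg Subtype.val (show (⟨φ d, d, rfl⟩ : φ.range) ^ 8 = 1 by
      rw [← e8]; exact pow_card_eq_one')) (h.odd.coprime_dvd_left (orderOf_map_dvd φ d))))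
  rw [← MonoidHom.range_eq_top]
  refine eq_top_of_card_eq _ ?_
  rw [k4] at k3 ⊢
  have k6 := Nat.le_of_dvd (by norm_num) k3
  generalize Nat.card φ.range = m at k2 k3 k5 k6
  interval_cases m <;> simp_all

theorem Str.equiv_two (h : Dih Q d) (s : Str Q U C d) (hC : Nat.card C = 2) (hP : IsSylowIn 2 P ⊤)
    {t : X} (ht : t ∈ P) (htQ : t ∉ Q) (ht2 : t ^ 2 = 1) :
    Nonempty (X ⧸ pPrimeCore 2 X ≃* Equiv.Perm (Fin 4) × Multiplicative (ZMod 2)) := by
  obtain ⟨φ, hφ, hk⟩ := s.exists_hom h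
  haveI := s.nU
  haveI := s.nC
  haveI := h.normal
  have hUQ : U ≤ Q := s.sup ▸ le_sup_left
  have hCQ : C ≤ Q := s.sup ▸ le_sup_right
  obtain ⟨⟨c, hc⟩, hc1, hy⟩ := (Nat.card_eq_two_iff' (1 : C)).1 hC
  have hC' : ∀ x ∈ C, x = 1 ∨ x = c := fun x hx => or_iff_not_imp_left.2 fun h1 =>
    congrArg Subtype.val (hy ⟨x, hx⟩ (by simpa using h1))
  have hcc : c * c = 1 := (hC' _ (mul_mem hc hc)).resolve_right (by simpa using hc1)
  set Y := pResidual 2 X ⊔ zpowers t with hY
  have hcY : c ∉ Y := fun hm => by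
    obtain ⟨k, hk, a, ha, e⟩ := (mem_sup_of_le_normalizer' (le_normalizer_of_normal _)).1 hm
    rw [s.res] at hk
    obtain ⟨u, hu, b, hb, rfl⟩ := (mem_sup_of_le_normalizer' (le_normalizer_of_normal _)).1 hk
    have haP : a ∈ P := zpowers_le.2 ht ha
    have hb1 : b = 1 := eq_one_of_mem_pgroup_of_coprime hP.pgroup (by
      have := mul_mem (mul_mem (inv_mem (h.le hP (hUQ hu))) (h.le hP (hCQ hc))) (inv_mem haP)
      rw [← e] at this
      simpa [mul_assoc] using this) (h.odd_of_mem hb)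
    rw [hb1, mul_one] at e
    have haQ : a ∈ Q := by simpa [← e] using mul_mem (inv_mem (hUQ hu)) (hCQ hc)
    obtain ⟨m, rfl⟩ := (mem_powers_iff_mem_zpowers.2 ha)
    rcases Nat.even_or_odd' m with ⟨m, rfl | rfl⟩
    · simp only [pow_mul, ht2, one_pow, mul_one] at e
      exact hc1 (Subtype.ext (mem_bot.1 (s.inf ▸ ⟨e ▸ hu, s.Cd hc⟩)))
    · simp only [pow_succ, pow_mul, ht2, one_pow, one_mul] at haQ
      exact htQ haQ
  have hT : Y ⊔ C = ⊤ := top_le_iff.1 ((CfsgL0.pResidual_sup_sylow hP.sylow).ge.trans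
    (sup_le (le_sup_left.trans le_sup_left) (le_of_two (h.idx P hP) ht htQ
      (s.sup ▸ sup_le_sup_right (le_sup_left.trans (s.res.ge.trans le_sup_left)) _)
      (mem_sup_left (mem_sup_right (mem_zpowers t))))))
  have hY2 : Y.index = 2 := index_eq_two_iff_exists_notMem_and.2 ⟨c, hcY, fun b => by
    obtain ⟨y, hy', x, hx, rfl⟩ := (mem_sup_of_le_normalizer (le_normalizer_of_normal _)).1
      (hT ▸ mem_top b)
    rcases hC' x hx with rfl | rfl
    · exact Or.inr (by simpa using hy')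
    · exact Or.inl (by rwa [mul_assoc, hcc, mul_one])⟩
  haveI := normal_of_index_eq_two hY2
  let e : X ⧸ Y ≃* Multiplicative (ZMod 2) := mulEquivOfPrimeCardEq (p := 2) hY2 (by simp)
  let ψ := e.toMonoidHom.comp (QuotientGroup.mk' Y)
  have hψ : ψ.ker = Y := (MonoidHom.ker_mulEquiv_comp _ e).trans (QuotientGroup.ker_mk' _)
  have hO : pPrimeCore 2 X ≤ Y := fun x hx => mem_sup_left (subset_closure (odd_of_mem_core hx))
  have k1 : (φ.prod ψ).ker = pPrimeCore 2 X := by
    rw [MonoidHom.ker_prod, hk, hψ]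
    refine le_antisymm (fun x hx => ?_) (le_inf le_sup_left hO)
    obtain ⟨o, ho, a, ha, rfl⟩ := (mem_sup_of_le_normalizer (le_normalizer_of_normal _)).1 hx.1
    rcases hC' a ha with rfl | rfl
    · simpa using ho
    · exact absurd (by simpa using mul_mem (inv_mem (hO ho)) hx.2) hcY
  have k2 : Function.Surjective (φ.prod ψ) := fun ⟨a, z⟩ => by
    obtain ⟨x, rfl⟩ := hφ a
    have c1 : φ c = 1 := (hk ▸ mem_sup_right hc : c ∈ φ.ker)
    have c2 : ψ c ≠ 1 := fun e => hcY (hψ ▸ e)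
    have : ∀ a b z : Multiplicative (ZMod 2), b ≠ 1 → a = z ∨ a * b = z := by decide
    rcases this (ψ x) _ z c2 with e | e
    · exact ⟨x, Prod.ext rfl e⟩
    · exact ⟨x * c, Prod.ext (by simp [c1]) (by simpa using e)⟩
  exact ⟨(QuotientGroup.quotientMulEquivOfEq k1.symm).trans
    (QuotientGroup.quotientKerEquivOfSurjective _ k2)⟩

/-- The main theorem for an abstract group `X` with an automorphism `σ` of a Sylow subgroup. -/
theorem Dih.main (h : Dih Q d) (h0 : Q ≠ ⊥) (hP : IsSylowIn 2 P ⊤) (σ : MulAut P)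
    (hσ : ∀ W : Subgroup P, W.Normal → (W.map σ.toMonoidHom).map σ.toMonoidHom = W)
    (hW : ∀ W : Subgroup P, (W.map P.subtype).Normal → W.map σ.toMonoidHom = W → W = ⊥) :
    (Nat.card P = 4 ∨ Nat.card P = 8 ∨ Nat.card P = 16) ∧
    (Nonempty (X ⧸ pPrimeCore 2 X ≃* Multiplicative (ZMod 2) × Multiplicative (ZMod 2)) ∨
     Nonempty (X ⧸ pPrimeCore 2 X ≃* Equiv.Perm (Fin 4)) ∨
     Nonempty (X ⧸ pPrimeCore 2 X ≃* Equiv.Perm (Fin 4) × Multiplicative (ZMod 2))) := by
  have hQP := h.le hP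
  have hn : ∀ W : Subgroup P, W.Normal → pResidual 2 X ≤ normalizer (W.map P.subtype : Set X) →
      (W.map P.subtype).Normal := fun W _ h1 => normalizer_eq_top_iff.1 (top_le_iff.1
    ((CfsgL0.pResidual_sup_sylow hP.sylow).ge.trans
      (sup_le h1 (CfsgL0.le_normalizer_map_subtype W))))
  by_cases hd : d ∈ centralizer (Q : Set X)
  · haveI := lemT0 σ.toMonoidHom σ.bijective hσ (h.idx P hP)
      (fun e => h0 (by rw [← map_subgroupOf_eq_of_le hQP, e, Subgroup.map_bot])) fun W h1 h2 h3 =>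
      hW W (hn W h1 (((closure_le _).2 fun x hx => FQ.mem_of_mem_sup (H := centralizer (Q : Set X))
        h.pg (haveI := h.normal; le_normalizer_of_normal _) hx
        ((sup_le le_sup_right ((zpowers_le.2 hd).trans le_sup_left) : Q ⊔ zpowers d ≤ _)
          (h.gen x hx))).trans ((centralizer_anti (map_le_iff_le_comap.2 h3)).trans
            (centralizer_le_normalizer _)))) h2
    haveI : IsKleinFour (Multiplicative (ZMod 2) × Multiplicative (ZMod 2)) :=
      ⟨by simp, by simp [Monoid.exponent_prod]⟩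
    obtain ⟨e⟩ := h.equiv_of_cent hd hP
    exact ⟨Or.inl IsKleinFour.card_four, Or.inl ⟨e.symm.trans IsKleinFour.nonempty_mulEquiv.some⟩⟩
  have hN : NoChar X := fun P' W hP' hWP hφ hWn => by
    obtain ⟨g, -, rfl⟩ := hP.exists_cj_eq hP'
    let e : P ≃* cj g P := (MulAut.conj g).subgroupMap P
    have k : W ≤ P := by rwa [← cj_normal g W, cj_le_cj_iff] at hWP
    have := hW (W.subgroupOf P) (by rwa [map_subgroupOf_eq_of_le k]) (eq_of_le_of_card_ge (by
      rintro _ ⟨x, hx, rfl⟩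
      have := hφ (e.symm.trans (σ.trans e)) (e x) (hWn.conj_mem _ hx g)
      simp only [MulEquiv.trans_apply, MulEquiv.symm_apply_apply] at this
      have k2 := hWn.conj_mem _ this g⁻¹
      change g⁻¹ * (g * (σ x : X) * g⁻¹) * g⁻¹⁻¹ ∈ W at k2
      rw [mem_subgroupOf]
      simpa [mul_assoc] using k2) (card_map_of_injective σ.injective).ge)
    rw [← map_subgroupOf_eq_of_le k, this, Subgroup.map_bot]
  have s := h.str hd hN
  generalize ⁅Q, zpowers d⁆ = U at s
  generalize Q ⊓ centralizer (zpowers d : Set X) = C at s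
  haveI := s.nU
  haveI := s.nC
  have hUQ : U ≤ Q := s.sup ▸ le_sup_left
  have hCQ : C ≤ Q := s.sup ▸ le_sup_right
  have hi : U ⊓ C = ⊥ := eq_bot_iff.2 (s.inf ▸ inf_le_inf_left _ s.Cd)
  obtain ⟨k1, t, ht, ht2⟩ := lemT σ.toMonoidHom σ.bijective hσ (U := U.subgroupOf P)
    (C := C.subgroupOf P) (h.idx P hP)
    (by rw [← subgroupOf_sup (hUQ.trans hQP) (hCQ.trans hQP), s.sup])
    (by rw [subgroupOf, subgroupOf, ← comap_inf, hi]; exact bot_subgroupOf P)
    (fun u hu q hq => Subtype.ext (s.UZ hu q hq)) (fun u hu => Subtype.ext (s.pow u hu))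
    (by rw [CfsgL0.card_subgroupOf_of_le (hUQ.trans hQP), s.card])
    (fun hc => by
      obtain ⟨x, hx, hxQ⟩ := SetLike.not_le_iff_exists.1 (h.not_le hP)
      have := h.mem_of_normal hP hx hxQ (K := centralizer (U : Set X)) fun u hu =>
        congrArg Subtype.val (mem_center_iff.1 (hc (x := ⟨u, hQP (hUQ hu)⟩) hu) ⟨x, hx⟩).symm
      have k := s.card
      rw [← inf_eq_left.2 (le_centralizer_comm.1 (zpowers_le.2 this)), s.inf] at k
      simp at k)
    fun W h1 h2 h3 => hW W (hn W h1 (h3.elim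
      (fun h3 => s.nrm _ ((map_le_iff_le_comap.2 h3).trans hCQ) (Or.inl (map_le_iff_le_comap.2 h3)))
      fun h3 => s.nrm _ (map_le_iff_le_comap.2 h3.2) (Or.inr
        (by rw [← map_subgroupOf_eq_of_le (hUQ.trans hQP)]; exact map_mono h3.1)))) h2
  rw [CfsgL0.card_subgroupOf_of_le (hCQ.trans hQP)] at k1
  have k2 := CfsgH2.card_sup_mul_card_inf (H := U) (K := C) (le_normalizer_of_normal _)
  have k3 := card_mul_relIndex hQP
  rw [s.sup, hi, s.card, card_bot] at k2
  rw [h.idx P hP] at k3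
  have k4 : 0 < Nat.card C := Nat.card_pos
  rcases (show Nat.card C = 1 ∨ Nat.card C = 2 by omega) with k5 | k5
  · obtain ⟨φ, hφ, hk⟩ := s.exists_hom h
    rw [card_eq_one.1 k5, sup_bot_eq] at hk
    exact ⟨by omega, Or.inr (Or.inl ⟨(QuotientGroup.quotientMulEquivOfEq hk.symm).trans
      (QuotientGroup.quotientKerEquivOfSurjective _ hφ)⟩)⟩
  · exact ⟨by omega, Or.inr (Or.inr (s.equiv_two h k5 hP t.2 ht (congrArg Subtype.val ht2)))⟩

end CfsgH3.PB
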